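import Cfsg.Agent.Lib.Root.McL.Group
import Cfsg.Agent.Lib.Classical.SL

/-! Generation of special linear and symplectic groups by transvections, on abstract spaces. -/

set_option autoImplicit false

namespace Cfsg.Agent.Lib.Root.McL

open Module Matrix

variable {p : ℕ} [Fact p.Prime] {W : Type*} [AddCommGroup W] [Module (ZMod p) W] [Finite W]

theorem sl_gen_aux {F W : Type*} [Field F] [AddCommGroup W] [Module F W] {ι : Type*} [Fintype ι]
    [DecidableEq ι] (b : Basis ι F W) (M : Matrix.SpecialLinearGroup ι F) (T : Set (W ≃ₗ[F] W))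
    (hT : ∀ i j, i ≠ j → ∀ a : F, ∃ t ∈ T, ∀ x, t x = x + (b.coord j x) • (a • b i)) :
    ∃ t ∈ Subgroup.closure T, ∀ x, b.equivFun (t x) = M.1 *ᵥ b.equivFun x := by
  refine Cfsg.Agent.Lib.Classical.sl_transvection_induction
    (fun X : Matrix.SpecialLinearGroup ι F => ∃ t ∈ Subgroup.closure T,
      ∀ x, b.equivFun (t x) = X.1 *ᵥ b.equivFun x) ?_ ?_ ?_ M
  · intro i j hij a
    obtain ⟨t, ht, ht'⟩ := hT i j hij a
    refine ⟨t, Subgroup.subset_closure ht, fun x => ?_⟩
    rw [ht' x, Matrix.SpecialLinearGroup.transvection_coe, Matrix.add_mulVec, Matrix.one_mulVec,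
      map_add, Matrix.single_mulVec]
    congr 1
    rw [map_smul, map_smul]
    funext k
    rw [Pi.smul_apply, Pi.smul_apply, Basis.equivFun_self, Function.update_apply]
    by_cases hk : k = i
    · subst hk
      simp [Basis.coord_apply, mul_comm]
    · simp [hk, Ne.symm hk]
  · exact ⟨1, Subgroup.one_mem _, fun x => by simp⟩
  · rintro X Y ⟨s, hs, hs'⟩ ⟨t, ht, ht'⟩
    refine ⟨s * t, Subgroup.mul_mem _ hs ht, fun x => ?_⟩
    rw [LinearEquiv.mul_apply, hs', ht', Matrix.mulVec_mulVec]
    rfl

theorem sl_gen_field {F W : Type*} [Field F] [AddCommGroup W] [Module F W] [Module.Finite F W]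
    (T : Set (W ≃ₗ[F] W))
    (hT : ∀ (f : Dual F W) (v : W), f v = 0 → ∃ t ∈ T, ∀ x, t x = x + f x • v)
    (g : W ≃ₗ[F] W) (hg : LinearMap.det (g : W →ₗ[F] W) = 1) : g ∈ Subgroup.closure T := by
  classical
  have hA : (LinearMap.toMatrix (Module.finBasis F W) (Module.finBasis F W)
      (g : W →ₗ[F] W)).det = 1 := by
    rw [LinearMap.det_toMatrix, hg]
  obtain ⟨t, ht, ht'⟩ := sl_gen_aux (Module.finBasis F W) ⟨_, hA⟩ T (fun i j hij a => by
    refine hT _ _ ?_
    rw [map_smul, Basis.coord_apply, Basis.repr_self, Finsupp.single_eq_of_ne hij.symm]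
    simp)
  have : t = g := by
    apply LinearEquiv.ext
    intro x
    apply (Module.finBasis F W).equivFun.injective
    rw [ht' x]
    have := LinearMap.toMatrix_mulVec_repr (Module.finBasis F W) (Module.finBasis F W)
      (g : W →ₗ[F] W) x
    simp only [Basis.equivFun_apply]
    exact this
  rwa [← this]

/-- The special linear group is generated by transvections. -/
theorem sl_gen (g : W ≃ₗ[ZMod p] W) (hg : LinearMap.det (g : W →ₗ[ZMod p] W) = 1) :
    g ∈ Subgroup.closure {t : W ≃ₗ[ZMod p] W | ∃ v f, f v = 0 ∧ IsT t v f} := by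
  haveI : Module.Finite (ZMod p) W := Module.Finite.of_finite
  refine sl_gen_field _ (fun f v h0 => ?_) g hg
  obtain ⟨t, ht⟩ := exists_isT h0
  exact ⟨t, ⟨v, f, h0, ht⟩, ht⟩

variable {B : LinearMap.BilinForm (ZMod p) W}

/-- The set of symplectic transvections. -/
def spT (B : LinearMap.BilinForm (ZMod p) W) : Set (W ≃ₗ[ZMod p] W) :=
  {t | ∃ v c, ∀ x, t x = x + (c * B x v) • v}

theorem exists_tau (halt : B.IsAlt) (v : W) (c : ZMod p) : ∃ t, t ∈ spT B ∧ ∀ x, t x = x + (c * B x v) • v := by
  have h0 : (c • LinearMap.flip B v) v = 0 := by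
    rw [LinearMap.smul_apply, LinearMap.flip_apply, halt.self_eq_zero, smul_zero]
  obtain ⟨t, ht⟩ := exists_isT h0
  have h1 : ∀ x, t x = x + (c * B x v) • v := fun x => by
    rw [ht x, LinearMap.smul_apply, LinearMap.flip_apply, smul_eq_mul]
  exact ⟨t, ⟨v, c, h1⟩, h1⟩

theorem spT_isom (halt : B.IsAlt) {t : W ≃ₗ[ZMod p] W} (ht : t ∈ Subgroup.closure (spT B)) (x y : W) :
    B (t x) (t y) = B x y := by
  induction ht using Subgroup.closure_induction generalizing x y with
  | mem a ha =>
    obtain ⟨v, c, hc⟩ := ha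
    rw [hc x, hc y]
    simp only [map_add, map_smul, LinearMap.add_apply, LinearMap.smul_apply, smul_eq_mul,
      halt.self_eq_zero]
    have := halt.neg_eq v y
    rw [← this]
    ring
  | one => rfl
  | mul a b _ _ h1 h2 =>
    rw [LinearEquiv.mul_apply, LinearEquiv.mul_apply, h1, h2]
  | inv a _ h1 =>
    have e : ∀ z, a (a⁻¹ z) = z := fun z => by
      show (a * a⁻¹) z = z
      rw [mul_inv_cancel]
      rfl
    rw [← h1, e, e]

/-- One step of the reduction. -/
theorem sp_step (halt : B.IsAlt) (hnd : ∀ v, (∀ z, B z v = 0) → v = 0) {g : W ≃ₗ[ZMod p] W}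
    (hg : ∀ x y, B (g x) (g y) = B x y) (hne : g ≠ 1) :
    ∃ t ∈ Subgroup.closure (spT B), ∃ x, g x ≠ x ∧ t (g x) = x ∧ ∀ u, g u = u → t u = u := by
  have hsw : ∀ a b, B a b = - B b a := fun a b => (halt.neg_eq b a).symm
  have hself : ∀ a, B a a = 0 := fun a => halt.self_eq_zero a
  by_cases hcase : ∃ x, B x (g x) ≠ 0
  · obtain ⟨x, hx⟩ := hcase
    set v := g x - x with hv
    set c := -(B x (g x))⁻¹ with hc
    obtain ⟨t, ht, ht'⟩ := exists_tau halt v c
    refine ⟨t, Subgroup.subset_closure ht, x, ?_, ?_, ?_⟩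
    · intro h
      rw [h, hself] at hx
      exact hx rfl
    · rw [ht']
      have e1 : B (g x) v = B x (g x) := by
        rw [hv, map_sub, hself, hsw (g x) x]; ring
      rw [e1, hc, neg_mul, inv_mul_cancel₀ hx, neg_smul, one_smul, hv]
      abel
    · intro u hu
      rw [ht', hv, map_sub]
      have e2 : B u (g x) = B u x := by
        conv_lhs => rw [← hu]
        exact hg u x
      rw [e2, sub_self, mul_zero, zero_smul, add_zero]
  · push Not at hcase
    have hgne : ∃ x, g x ≠ x := by
      by_contra hcon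
      push Not at hcon
      exact hne (LinearEquiv.ext hcon)
    obtain ⟨x, hx⟩ := hgne
    set v := g x - x with hv
    have hv0 : v ≠ 0 := sub_ne_zero.mpr hx
    have hz : ∃ z, B z v ≠ 0 := by
      by_contra hcon
      push Not at hcon
      exact hv0 (hnd v hcon)
    obtain ⟨z, hzv⟩ := hz
    set w := g z - z with hw
    set y := x + w with hy
    have hpol : B x (g z) + B z (g x) = 0 := by
      have h1 := hcase (x + z)
      simp only [map_add, LinearMap.add_apply, hcase x, hcase z] at h1
      linear_combination h1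
    have e1 : B (g x) y = B z v := by
      rw [hy, hw, hv]
      simp only [map_add, map_sub, LinearMap.sub_apply]
      rw [hg x z, hsw (g x) x, hcase x, hsw (g x) z, hsw x z]
      ring
    have e2 : B y x = B z v := by
      rw [hy, hw, hv]
      simp only [map_add, map_sub, LinearMap.add_apply, LinearMap.sub_apply]
      rw [hself x, hsw (g z) x]
      linear_combination -hpol
    set c₂ := (B (g x) y)⁻¹ with hc₂
    set c₁ := (B y x)⁻¹ with hc₁
    obtain ⟨t₂, ht₂, ht₂'⟩ := exists_tau halt (y - g x) c₂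
    obtain ⟨t₁, ht₁, ht₁'⟩ := exists_tau halt (x - y) c₁
    refine ⟨t₁ * t₂, Subgroup.mul_mem _ (Subgroup.subset_closure ht₁) (Subgroup.subset_closure ht₂),
      x, hx, ?_, ?_⟩
    · rw [LinearEquiv.mul_apply, ht₂', ht₁']
      have e3 : B (g x) (y - g x) = B (g x) y := by
        rw [map_sub, hself, sub_zero]
      have n1 : B (g x) y ≠ 0 := by rw [e1]; exact hzv
      have n2 : B y x ≠ 0 := by rw [e2]; exact hzv
      rw [e3, hc₂, inv_mul_cancel₀ n1, one_smul]
      have e4 : g x + (y - g x) = y := by abel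
      rw [e4]
      have e5 : B y (x - y) = B y x := by
        rw [map_sub, hself, sub_zero]
      rw [e5, hc₁, inv_mul_cancel₀ n2, one_smul]
      abel
    · intro u hu
      have e6 : ∀ a, B u (g a) = B u a := fun a => by
        conv_lhs => rw [← hu]
        exact hg u a
      have e7 : B u w = 0 := by
        rw [hw, map_sub, e6, sub_self]
      rw [LinearEquiv.mul_apply, ht₂']
      have e8 : B u (y - g x) = 0 := by
        rw [map_sub, hy, map_add, e7, e6, add_zero, sub_self]
      rw [e8, mul_zero, zero_smul, add_zero, ht₁']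
      have e9 : B u (x - y) = 0 := by
        rw [map_sub, hy, map_add, e7, add_zero, sub_self]
      rw [e9, mul_zero, zero_smul, add_zero]

/-- The fixed subspace. -/
def fixS (g : W ≃ₗ[ZMod p] W) : Submodule (ZMod p) W where
  carrier := {x | g x = x}
  add_mem' := by
    intro a b ha hb
    show g (a + b) = a + b
    rw [map_add, show g a = a from ha, show g b = b from hb]
  zero_mem' := map_zero g
  smul_mem' := by
    intro c a ha
    show g (c • a) = c • a
    rw [map_smul, show g a = a from ha]

/-- The isometry group of a nondegenerate alternating form is generated by transvections. -/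
theorem sp_gen (halt : B.IsAlt) (hnd : ∀ v, (∀ z, B z v = 0) → v = 0) (g : W ≃ₗ[ZMod p] W)
    (hg : ∀ x y, B (g x) (g y) = B x y) : g ∈ Subgroup.closure (spT B) := by
  haveI : Module.Finite (ZMod p) W := Module.Finite.of_finite
  induction h : finrank (ZMod p) W - finrank (ZMod p) (fixS g) using Nat.strong_induction_on generalizing g with
  | _ n ih =>
    by_cases hne : g = 1
    · rw [hne]; exact Subgroup.one_mem _
    obtain ⟨t, ht, x, hx, htx, hfix⟩ := sp_step halt hnd hg hne
    have hg' : ∀ a b, B ((t * g) a) ((t * g) b) = B a b := fun a b => by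
      rw [LinearEquiv.mul_apply, LinearEquiv.mul_apply, spT_isom halt ht, hg]
    have hlt : fixS g < fixS (t * g) := by
      refine lt_of_le_of_ne (fun u hu => ?_) ?_
      · show (t * g) u = u
        have hu' : g u = u := hu
        rw [LinearEquiv.mul_apply, hu', hfix u hu']
      · intro heq
        have h1 : x ∈ fixS (t * g) := by
          show (t * g) x = x
          rw [LinearEquiv.mul_apply, htx]
        rw [← heq] at h1
        exact hx h1
    have h1 := Submodule.finrank_lt_finrank_of_lt hlt
    have h2 : finrank (ZMod p) (fixS (t * g)) ≤ finrank (ZMod p) W := Submodule.finrank_le _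
    have h3 := ih _ (by omega) (t * g) hg' rfl
    have e : g = t⁻¹ * (t * g) := by group
    rw [e]
    exact Subgroup.mul_mem _ (Subgroup.inv_mem _ ht) h3

end Cfsg.Agent.Lib.Root.McL
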