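import Cfsg.Agent.Lib.Root.McL.Comp
import Cfsg.Agent.Lib.Root.McL.Gen

/-! Assembling the components into the decomposition of McLaughlin's theorem. -/

set_option autoImplicit false

namespace Cfsg.Agent.Lib.Root.McL

open Module

variable {p : ℕ} [Fact p.Prime] {V : Type*} [AddCommGroup V] [Module (ZMod p) V]

theorem map_eq_of_stab {Z : Submodule (ZMod p) V} {h : V ≃ₗ[ZMod p] V} (hh : h ∈ stabSub Z) :
    Z.map (h : V →ₗ[ZMod p] V) = Z := by
  apply le_antisymm
  · rintro _ ⟨w, hw, rfl⟩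
    exact hh.1 w hw
  · intro w hw
    refine ⟨(h⁻¹ : V ≃ₗ[ZMod p] V) w, hh.2 w hw, ?_⟩
    show (h * h⁻¹) w = w
    rw [mul_inv_cancel]
    rfl

/-- The fixed-point subgroup of a subspace. -/
def fixSub (Z : Submodule (ZMod p) V) : Subgroup (V ≃ₗ[ZMod p] V) where
  carrier := {g | ∀ w ∈ Z, g w = w}
  mul_mem' := by
    intro a b ha hb w hw
    rw [LinearEquiv.mul_apply, hb w hw, ha w hw]
  one_mem' := fun _ _ => rfl
  inv_mem' := by
    intro a ha w hw
    exact inv_apply_of (ha w hw)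

theorem assemble {n : ℕ} (hn : 1 ≤ n) (H : Subgroup (V ≃ₗ[ZMod p] V))
    (W' U' : Fin n → Submodule (ZMod p) V) (K' : Fin n → Subgroup (V ≃ₗ[ZMod p] V))
    (h1 : ∀ i, IsCompl (W' i) (U' i))
    (h2 : ∀ i j, i ≠ j → W' i ≤ U' j)
    (h3 : ∀ i, H ≤ stabSub (W' i)) (h3' : ∀ i, H ≤ stabSub (U' i))
    (h4 : ∀ j, K' j ≤ H ∧ ((K' j).subgroupOf H).Normal)
    (h5 : ⨆ j, K' j = H)
    (h6 : ∀ i j, i ≠ j → ∀ g ∈ K' j, ∀ w ∈ W' i, g w = w)
    (h7 : ∀ i, ∀ g ∈ K' i, ∀ u ∈ U' i, g u = u)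
    (h8 : ∀ j, ∃ ρ : ↥(K' j) →* (↥(W' j) ≃ₗ[ZMod p] ↥(W' j)),
        (∀ (h : ↥(K' j)) (v : ↥(W' j)), ((ρ h v : ↥(W' j)) : V) = (h : V ≃ₗ[ZMod p] V) (v : V)) ∧
        ((ρ.range : Set (↥(W' j) ≃ₗ[ZMod p] ↥(W' j))) =
            {f : ↥(W' j) ≃ₗ[ZMod p] ↥(W' j) | LinearMap.det (f : ↥(W' j) →ₗ[ZMod p] ↥(W' j)) = 1} ∨
          ∃ B : LinearMap.BilinForm (ZMod p) ↥(W' j), B.IsAlt ∧ B.Nondegenerate ∧
            (ρ.range : Set (↥(W' j) ≃ₗ[ZMod p] ↥(W' j))) = {f : ↥(W' j) ≃ₗ[ZMod p] ↥(W' j) | ∀ x y, B (f x) (f y) = B x y})) :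
    ∃ (n : ℕ) (W : Fin (n + 1) → Submodule (ZMod p) V) (K : Fin n → Subgroup (V ≃ₗ[ZMod p] V)),
      1 ≤ n ∧ DirectSum.IsInternal W ∧
      (∀ h ∈ H, ∀ i, (W i).map (h : V →ₗ[ZMod p] V) = W i) ∧
      (∀ j, K j ≤ H ∧ ((K j).subgroupOf H).Normal) ∧ ⨆ j, K j = H ∧
      (∀ j, K j ⊓ (⨆ j' ∈ {j' : Fin n | j' ≠ j}, K j') = ⊥) ∧
      (∀ j j', j ≠ j' → ∀ a ∈ K j, ∀ b ∈ K j', a * b = b * a) ∧
      (∀ j, ∀ h ∈ K j, ∀ i : Fin (n + 1), i ≠ j.succ → ∀ v ∈ W i, h v = v) ∧
      (∀ j, ∃ ρ : ↥(K j) →* (↥(W j.succ) ≃ₗ[ZMod p] ↥(W j.succ)),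
        (∀ (h : ↥(K j)) (v : ↥(W j.succ)), ((ρ h v : ↥(W j.succ)) : V) = (h : V ≃ₗ[ZMod p] V) (v : V)) ∧
        ((ρ.range : Set (↥(W j.succ) ≃ₗ[ZMod p] ↥(W j.succ))) =
            {f : ↥(W j.succ) ≃ₗ[ZMod p] ↥(W j.succ) | LinearMap.det (f : ↥(W j.succ) →ₗ[ZMod p] ↥(W j.succ)) = 1} ∨
          ∃ B : LinearMap.BilinForm (ZMod p) ↥(W j.succ), B.IsAlt ∧ B.Nondegenerate ∧
            (ρ.range : Set (↥(W j.succ) ≃ₗ[ZMod p] ↥(W j.succ))) = {f : ↥(W j.succ) ≃ₗ[ZMod p] ↥(W j.succ) | ∀ x y, B (f x) (f y) = B x y})) := by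
  classical
  set V₀ : Submodule (ZMod p) V := ⨅ k, U' k with hV₀
  -- projections
  let π : Fin n → (V →ₗ[ZMod p] V) := fun k => (W' k).projection (U' k) (h1 k)
  have hπl : ∀ k, ∀ y ∈ W' k, π k y = y := fun k y hy => Submodule.projection_apply_of_mem_left _ hy
  have hπr : ∀ k, ∀ y ∈ U' k, π k y = 0 := fun k y hy => Submodule.projection_apply_of_mem_right _ hy
  have hπm : ∀ k y, π k y ∈ W' k := fun k y => Submodule.projection_apply_mem _ y
  let P : V →ₗ[ZMod p] V := ∑ k, π k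
  have hPa : ∀ x, P x = ∑ k, π k x := fun x => by
    simp only [P, LinearMap.sum_apply]
  have hPW : ∀ l, ∀ y ∈ W' l, P y = y := by
    intro l y hy
    rw [hPa, Finset.sum_eq_single l]
    · exact hπl l y hy
    · intro k _ hk
      exact hπr k y (h2 l k hk.symm hy)
    · intro hl
      exact absurd (Finset.mem_univ l) hl
  have hPU : ∀ x ∈ V₀, P x = 0 := by
    intro x hx
    rw [hPa]
    refine Finset.sum_eq_zero (fun k _ => hπr k x ?_)
    exact (Submodule.mem_iInf _).mp hx k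
  have hPS : ∀ x, P x ∈ ⨆ k, W' k := by
    intro x
    rw [hPa]
    exact Submodule.sum_mem _ (fun k _ => Submodule.mem_iSup_of_mem k (hπm k x))
  have hPsup : ∀ x ∈ ⨆ k, W' k, P x = x := by
    intro x hx
    have hle : (⨆ k, W' k) ≤ LinearMap.eqLocus P LinearMap.id :=
      iSup_le fun l y hy => hPW l y hy
    exact hle hx
  have hπP : ∀ k x, π k (P x) = π k x := by
    intro k x
    rw [hPa, map_sum, Finset.sum_eq_single k]
    · exact hπl k _ (hπm k x)
    · intro l _ hl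
      exact hπr k _ (h2 l k hl (hπm l x))
    · intro hl
      exact absurd (Finset.mem_univ k) hl
  have hrest : ∀ x, x - P x ∈ V₀ := by
    intro x
    refine (Submodule.mem_iInf _).mpr (fun k => ?_)
    have h0 : π k (x - P x) = 0 := by
      rw [map_sub, hπP, sub_self]
    exact (Submodule.projection_apply_eq_zero_iff (h1 k)).mp h0
  have hstab0 : H ≤ stabSub V₀ := by
    intro h hh
    refine ⟨fun w hw => (Submodule.mem_iInf _).mpr (fun k => ?_), fun w hw => (Submodule.mem_iInf _).mpr (fun k => ?_)⟩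
    · exact (h3' k hh).1 w ((Submodule.mem_iInf _).mp hw k)
    · exact (h3' k hh).2 w ((Submodule.mem_iInf _).mp hw k)
  -- decomposition with respect to one component
  have hdec : ∀ j x, ∃ w ∈ W' j, ∃ u ∈ U' j, x = w + u := by
    intro j x
    have : x ∈ W' j ⊔ U' j := by
      rw [(h1 j).sup_eq_top]
      exact Submodule.mem_top
    obtain ⟨w, hw, u, hu, e⟩ := Submodule.mem_sup.mp this
    exact ⟨w, hw, u, hu, e.symm⟩
  refine ⟨n, Fin.cons V₀ W', K', hn, ?_, ?_, h4, h5, ?_, ?_, ?_, h8⟩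
  · -- internal direct sum
    rw [DirectSum.isInternal_submodule_iff_iSupIndep_and_iSup_eq_top]
    constructor
    · intro i
      rw [Submodule.disjoint_def]
      intro x hx hx'
      induction i using Fin.cases with
      | zero =>
        have hle : (⨆ (j : Fin (n + 1)) (_ : j ≠ 0), (Fin.cons V₀ W' : Fin (n + 1) → Submodule (ZMod p) V) j) ≤
            ⨆ k, W' k := by
          refine iSup₂_le (fun j hj => ?_)
          induction j using Fin.cases with
          | zero => exact absurd rfl hj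
          | succ k => exact le_iSup W' k
        have h9 := hPsup x (hle hx')
        rw [hPU x hx] at h9
        exact h9.symm
      | succ k =>
        have hle : (⨆ (j : Fin (n + 1)) (_ : j ≠ k.succ), (Fin.cons V₀ W' : Fin (n + 1) → Submodule (ZMod p) V) j) ≤
            U' k := by
          refine iSup₂_le (fun j hj => ?_)
          induction j using Fin.cases with
          | zero => exact iInf_le U' k
          | succ l =>
            refine h2 l k (fun h => hj ?_)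
            rw [h]
        have h9 := hle hx'
        exact (Submodule.disjoint_def.mp (h1 k).disjoint) x hx h9
    · rw [eq_top_iff]
      intro x _
      have e : x = P x + (x - P x) := by abel
      rw [e]
      refine Submodule.add_mem _ ?_ ?_
      · have hle : (⨆ k, W' k) ≤ ⨆ i, (Fin.cons V₀ W' : Fin (n + 1) → Submodule (ZMod p) V) i :=
          iSup_le (fun k => le_iSup (Fin.cons V₀ W' : Fin (n + 1) → Submodule (ZMod p) V) k.succ)
        exact hle (hPS x)
      · exact (le_iSup (Fin.cons V₀ W' : Fin (n + 1) → Submodule (ZMod p) V) 0) (hrest x)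
  · -- invariance
    intro h hh i
    induction i using Fin.cases with
    | zero => exact map_eq_of_stab (hstab0 hh)
    | succ k => exact map_eq_of_stab (h3 k hh)
  · -- trivial intersection
    intro j
    rw [eq_bot_iff]
    rintro g ⟨hg1, hg2⟩
    have hle : (⨆ j' ∈ {j' : Fin n | j' ≠ j}, K' j') ≤ fixSub (W' j) :=
      iSup₂_le (fun j' hj' g' hg' w hw => h6 j j' (Ne.symm hj') g' hg' w hw)
    have h9 := hle hg2
    rw [Subgroup.mem_bot]
    apply LinearEquiv.ext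
    intro x
    obtain ⟨w, hw, u, hu, rfl⟩ := hdec j x
    rw [map_add, h9 w hw, h7 j g hg1 u hu]
    rfl
  · -- commuting
    intro j j' hjj a ha b hb
    apply LinearEquiv.ext
    intro x
    obtain ⟨w, hw, u, hu, rfl⟩ := hdec j x
    have haH := (h4 j).1 ha
    have hbH := (h4 j').1 hb
    rw [LinearEquiv.mul_apply, LinearEquiv.mul_apply, map_add, map_add, map_add, map_add]
    have e1 : b w = w := h6 j j' hjj b hb w hw
    have e2 : b (a w) = a w := h6 j j' hjj b hb _ ((h3 j haH).1 w hw)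
    have e3 : a u = u := h7 j a ha u hu
    have e4 : a (b u) = b u := h7 j a ha _ ((h3' j hbH).1 u hu)
    rw [e1, e2, e3, e4]
  · -- trivial action
    intro j h hh i hi v hv
    induction i using Fin.cases with
    | zero => exact h7 j h hh v ((Submodule.mem_iInf _).mp hv j)
    | succ k =>
      exact h6 k j (fun e => hi (by rw [e])) h hh v hv

end Cfsg.Agent.Lib.Root.McL
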