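import Mathlib

/-! Abstract root-pair systems: the combinatorial heart of McLaughlin's theorem on groups
generated by transvections over a field of odd characteristic.  A root-pair system is a set `S` of
pairs `(x, f)` in `X × Y`, with `X`, `Y` paired by `B`, behaving like the centers and axes of the
transvections of a group. -/

set_option autoImplicit false

namespace Cfsg.Agent.Lib.Root.McL

variable {F X Y : Type*} [Field F] [AddCommGroup X] [AddCommGroup Y] [Module F X] [Module F Y]

/-- Root-pair systems. -/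
structure RS0 (B : X →ₗ[F] Y →ₗ[F] F) (S : X → Y → Prop) : Prop where
  ne_left : ∀ {x f}, S x f → x ≠ 0
  ne_right : ∀ {x f}, S x f → f ≠ 0
  iso : ∀ {x f}, S x f → B x f = 0
  smul_left : ∀ {x f} (c : F), c ≠ 0 → S x f → S (c • x) f
  smul_right : ∀ {x f} (c : F), c ≠ 0 → S x f → S x (c • f)
  add_left : ∀ {x x' f}, S x f → S x' f → x + x' ≠ 0 → S (x + x') f
  add_right : ∀ {x f f'}, S x f → S x f' → f + f' ≠ 0 → S x (f + f')
  conj : ∀ {x f x' f'}, S x f → S x' f' → ∀ c : F,
    S (x + (c * B x f') • x') (f - (c * B x' f) • f')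
  conn : ∀ (A : X → Y → Prop),
    (∀ x f x' f', S x f → A x f → S x' f' → (B x' f ≠ 0 ∨ B x f' ≠ 0) → A x' f') →
    ∀ x₀ f₀ x f, S x₀ f₀ → A x₀ f₀ → S x f → A x f
  noab : ∀ (A : X → Y → Prop), (∀ x f, A x f → S x f) →
    (∀ x f x' f', A x f → S x' f' → ∀ c : F, A (x + (c * B x f') • x') (f - (c * B x' f) • f')) →
    (∀ x f x' f', A x f → A x' f' → B x' f = 0) → ∀ x f, ¬ A x f

/-- Root-pair systems with no unipotent kernel on the radical quotient. -/
structure RS (B : X →ₗ[F] Y →ₗ[F] F) (S : X → Y → Prop) : Prop extends RS0 B S where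
  faith : ∀ {x f x' f'}, S x f → S x' f' → (∀ z g, S z g → B (x' - x) g = 0) →
    (∀ z g, S z g → B z (f' - f) = 0) → x' = x ∧ f' = f

variable {B : X →ₗ[F] Y →ₗ[F] F} {S : X → Y → Prop}

theorem RS0.flip (hS : RS0 B S) : RS0 B.flip (fun f x => S x f) where
  ne_left h := hS.ne_right h
  ne_right h := hS.ne_left h
  iso h := by simpa using hS.iso h
  smul_left c hc h := hS.smul_right c hc h
  smul_right c hc h := hS.smul_left c hc h
  add_left h h' hne := hS.add_right h h' hne
  add_right h h' hne := hS.add_left h h' hne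
  conj := by
    intro f x f' x' h h' c
    have := hS.conj h h' (-c)
    simp only [LinearMap.flip_apply]
    convert this using 2
    · simp only [neg_mul, neg_smul, sub_eq_add_neg]
    · simp only [neg_mul, neg_smul, sub_neg_eq_add]
  conn := by
    intro A hA f₀ x₀ f x h₀ hA₀ h
    refine hS.conn (fun x f => A f x) ?_ x₀ f₀ x f h₀ hA₀ h
    intro x f x' f' h1 h2 h3 h4
    refine hA f x f' x' h1 h2 h3 ?_
    simpa [or_comm] using h4
  noab := by
    intro A h1 h2 h3 f x
    refine hS.noab (fun x f => A f x) (fun x f h => h1 f x h) ?_ ?_ x f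
    · intro x f x' f' h h' c
      have := h2 f x f' x' h h' (-c)
      simp only [LinearMap.flip_apply] at this
      convert this using 2
      · simp only [neg_mul, neg_smul, sub_eq_add_neg]
      · simp only [neg_mul, neg_smul, sub_neg_eq_add]
    · intro x f x' f' h h'
      have := h3 f' x' f x h' h
      simpa using this

theorem RS.flip (hS : RS B S) : RS B.flip (fun f x => S x f) where
  toRS0 := hS.toRS0.flip
  faith := by
    intro f x f' x' h h' h1 h2
    have := hS.faith h h' (fun z g hz => by simpa using h2 g z hz) (fun z g hz => by simpa using h1 g z hz)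
    exact ⟨this.2, this.1⟩

theorem natcard_lt_of_inj {α β : Type*} [Finite α] [Finite β] (f : α → β)
    (h : Function.Injective f) (h2 : ¬ Function.Surjective f) : Nat.card α < Nat.card β := by
  classical
  haveI := Fintype.ofFinite α
  haveI := Fintype.ofFinite β
  rw [Nat.card_eq_fintype_card, Nat.card_eq_fintype_card]
  exact Fintype.card_lt_of_injective_not_surjective f h h2

namespace RS0

variable (hS : RS0 B S)
include hS

theorem s2 {x f x' f'} (h : S x f) (h' : S x' f') (h0 : B x' f + B x f' = 0) (hne : B x f' ≠ 0) :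
    S (x + x') (f + f') := by
  have h1 := hS.conj h h' (B x f')⁻¹
  have e1 : (B x f')⁻¹ * B x f' = 1 := inv_mul_cancel₀ hne
  have e2 : (B x f')⁻¹ * B x' f = -1 := by
    have : B x' f = - B x f' := by linear_combination h0
    rw [this, mul_neg, e1]
  rw [e1, e2, one_smul, neg_smul, one_smul, sub_neg_eq_add] at h1
  exact h1

theorem s3 {x f x' f'} (h : S x f) (h' : S x' f') (hne : B x' f ≠ 0) (h0 : B x f' = 0) : S x f' := by
  have h1 := hS.conj h h' (B x' f)⁻¹
  rw [h0, mul_zero, zero_smul, add_zero, inv_mul_cancel₀ hne, one_smul] at h1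
  have h2 := hS.smul_right (-1) (neg_ne_zero.mpr one_ne_zero) h
  have hf' := hS.ne_right h'
  have e : (f - f') + (-1 : F) • f = - f' := by
    rw [neg_smul, one_smul]; abel
  have h3 : S x ((f - f') + (-1 : F) • f) := hS.add_right h1 h2 (by rw [e]; exact neg_ne_zero.mpr hf')
  rw [e] at h3
  have h4 := hS.smul_right (-1) (neg_ne_zero.mpr one_ne_zero) h3
  rw [neg_smul, one_smul, neg_neg] at h4
  exact h4

/-- No split along a subspace. -/
theorem split (W : Submodule F X) (h : ∀ x f, S x f → x ∈ W ∨ ∀ w ∈ W, B w f = 0)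
    {x f z g} (hx : S x f) (hxW : x ∈ W) (hz : S z g) (hg : ∀ w ∈ W, B w g = 0) : False := by
  have key := hS.noab (fun x f => S x f ∧ x ∈ W ∧ ∀ w ∈ W, B w f = 0) (fun x f h => h.1) ?_ ?_
  · have hall : ∀ v k, S v k → v ∈ W := by
      intro v k hv
      refine hS.conn (fun x _ => x ∈ W) ?_ x f v k hx hxW hv
      intro a b a' b' h1 h2 h3 h4
      rcases h a' b' h3 with h5 | h5
      · exact h5
      · exfalso
        have h6 : B a b' = 0 := h5 a h2
        have h7 : B a' b ≠ 0 := by
          rcases h4 with h4 | h4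
          · exact h4
          · exact absurd h6 h4
        have h8 : S a b' := hS.s3 h1 h3 h7 h6
        exact key a b' ⟨h8, h2, h5⟩
    exact key z g ⟨hz, hall z g hz, hg⟩
  · rintro a b a' b' ⟨h1, h2, h3⟩ h4 c
    refine ⟨hS.conj h1 h4 c, ?_⟩
    rcases h a' b' h4 with h5 | h5
    · have e : B a' b = 0 := h3 a' h5
      rw [e, mul_zero, zero_smul, sub_zero]
      exact ⟨W.add_mem h2 (W.smul_mem _ h5), h3⟩
    · have e : B a b' = 0 := h5 a h2
      rw [e, mul_zero, zero_smul, add_zero]
      refine ⟨h2, fun w hw => ?_⟩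
      rw [map_sub, map_smul, h3 w hw, h5 w hw, smul_zero, sub_zero]
  · rintro a b a' b' ⟨-, -, h3⟩ ⟨-, h5, -⟩
    exact h3 a' h5

/-- A center in the radical is impossible. -/
theorem no_rad {x f} (hx : S x f) (h : ∀ z g, S z g → B x g = 0) : False := by
  refine hS.split (Submodule.span F {x}) ?_ hx (Submodule.mem_span_singleton_self x) hx ?_
  · intro a b hab
    right
    intro w hw
    obtain ⟨c, rfl⟩ := Submodule.mem_span_singleton.mp hw
    rw [map_smul, LinearMap.smul_apply, h a b hab, smul_zero]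
  · intro w hw
    obtain ⟨c, rfl⟩ := Submodule.mem_span_singleton.mp hw
    rw [map_smul, LinearMap.smul_apply, h x f hx, smul_zero]

/-- The functionals at a center (together with zero). -/
def D (x : X) : Submodule F Y where
  carrier := {f | f = 0 ∨ S x f}
  add_mem' := by
    rintro a b (rfl | ha) (rfl | hb)
    · left; simp
    · right; simpa using hb
    · right; simpa using ha
    · by_cases h : a + b = 0
      · left; exact h
      · right; exact hS.add_right ha hb h
  zero_mem' := Or.inl rfl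
  smul_mem' := by
    rintro c a (rfl | ha)
    · left; simp
    · by_cases hc : c = 0
      · left; simp [hc]
      · right; exact hS.smul_right c hc ha

theorem mem_D {x : X} {f : Y} : f ∈ hS.D x ↔ f = 0 ∨ S x f := Iff.rfl

theorem D_iso {x : X} {f : Y} (h : f ∈ hS.D x) : B x f = 0 := by
  rcases h with rfl | h
  · simp
  · exact hS.iso h

theorem mem_D_of {v f y k} (hf : S v f) (hne : B y f ≠ 0) (hk : k ∈ hS.D y) (h0 : B v k = 0) :
    k ∈ hS.D v := by
  rcases hk with rfl | hk
  · exact Or.inl rfl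
  · exact Or.inr (hS.s3 hf hk hne h0)

variable [Finite Y]

theorem card_le {v f y} (hf : S v f) (hne : B y f ≠ 0) :
    Nat.card (hS.D y) ≤ Nat.card (hS.D v) := by
  by_cases hmut : ∃ g, S y g ∧ B v g ≠ 0
  · obtain ⟨g, hg, hgv⟩ := hmut
    have hgD : g ∈ hS.D y := Or.inr hg
    have hfD : f ∈ hS.D v := Or.inr hf
    let φ : hS.D y → hS.D v := fun k =>
      ⟨(k.1 - (B v k.1 / B v g) • g) + (B v k.1 / B v g) • f, by
        refine (hS.D v).add_mem ?_ ((hS.D v).smul_mem _ hfD)
        refine hS.mem_D_of hf hne ((hS.D y).sub_mem k.2 ((hS.D y).smul_mem _ hgD)) ?_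
        rw [map_sub, map_smul, smul_eq_mul]
        field_simp
        ring⟩
    apply Nat.card_le_card_of_injective φ
    intro k k' hkk
    have h1 : (k.1 - (B v k.1 / B v g) • g) + (B v k.1 / B v g) • f =
        (k'.1 - (B v k'.1 / B v g) • g) + (B v k'.1 / B v g) • f := congrArg Subtype.val hkk
    have h2 := congrArg (B y) h1
    simp only [map_add, map_sub, map_smul, smul_eq_mul] at h2
    rw [hS.D_iso k.2, hS.D_iso k'.2, hS.D_iso hgD] at h2
    simp only [mul_zero, sub_zero, zero_add] at h2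
    have h3 : B v k.1 / B v g = B v k'.1 / B v g := mul_right_cancel₀ hne h2
    rw [h3] at h1
    apply Subtype.ext
    have h4 := add_right_cancel h1
    exact sub_left_injective h4
  · push Not at hmut
    have hle : hS.D y ≤ hS.D v := fun k hk => by
      refine hS.mem_D_of hf hne hk ?_
      rcases hk with rfl | hk
      · simp
      · exact hmut k hk
    exact Nat.card_le_card_of_injective (Submodule.inclusion hle) (Submodule.inclusion_injective hle)

variable [Finite X]

theorem card_const {x f y g} (hx : S x f) (hy : S y g) :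
    Nat.card (hS.D x) = Nat.card (hS.D y) := by
  classical
  -- a center of minimal size
  obtain ⟨x₀, ⟨f₀, hf₀⟩, hmin⟩ := Set.exists_min_image {x | ∃ f, S x f}
    (fun x => Nat.card (hS.D x)) (Set.toFinite _) ⟨x, f, hx⟩
  set m := Nat.card (hS.D x₀) with hm
  have hall : ∀ a b, S a b → Nat.card (hS.D a) = m := by
    intro a b hab
    by_contra hne
    have hlt : m < Nat.card (hS.D a) := lt_of_le_of_ne (hmin a ⟨b, hab⟩) (Ne.symm hne)
    let W : Submodule F X := Submodule.span F {x | (∃ f, S x f) ∧ m < Nat.card (hS.D x)}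
    have hW : a ∈ W := Submodule.subset_span ⟨⟨b, hab⟩, hlt⟩
    have hsmall : ∀ u k, S u k → Nat.card (hS.D u) = m → ∀ w ∈ W, B w k = 0 := by
      intro u k huk hu w hw
      induction hw using Submodule.span_induction with
      | mem y hy =>
        by_contra hne
        have := hS.card_le huk hne
        have h2 := hy.2
        omega
      | zero => simp
      | add p q _ _ hp hq => rw [map_add, LinearMap.add_apply, hp, hq, add_zero]
      | smul c p _ hp => rw [map_smul, LinearMap.smul_apply, hp, smul_zero]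
    refine hS.split W ?_ hab hW hf₀ (hsmall x₀ f₀ hf₀ rfl)
    intro u k huk
    by_cases hu : Nat.card (hS.D u) = m
    · right; exact hsmall u k huk hu
    · left
      exact Submodule.subset_span ⟨⟨k, huk⟩, lt_of_le_of_ne (hmin u ⟨k, huk⟩) (Ne.symm hu)⟩
  rw [hall x f hx, hall y g hy]

omit [Finite X] in
omit [Finite Y] in
/-- `Rel x y`: some functional at `x` does not vanish at `y`. -/
def _root_.Cfsg.Agent.Lib.Root.McL.Rel (B : X →ₗ[F] Y →ₗ[F] F) (S : X → Y → Prop) (x y : X) : Prop :=
  ∃ f, S x f ∧ B y f ≠ 0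

theorem rel_symm {x y} (h : Rel B S x y) (hy : ∃ g, S y g) : Rel B S y x := by
  obtain ⟨f, hf, hne⟩ := h
  obtain ⟨g, hg⟩ := hy
  by_contra hcon
  have hle : hS.D y ≤ hS.D x := fun k hk => by
    refine hS.mem_D_of hf hne hk ?_
    rcases hk with rfl | hk
    · simp
    · by_contra h0
      exact hcon ⟨k, hk, h0⟩
  have hnot : ¬ Function.Surjective (Submodule.inclusion hle) := by
    intro hsurj
    obtain ⟨k, hk⟩ := hsurj ⟨f, Or.inr hf⟩
    have h1 : (k : Y) = f := congrArg Subtype.val hk
    apply hne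
    rw [← h1]
    exact hS.D_iso k.2
  have hlt := natcard_lt_of_inj _ (Submodule.inclusion_injective hle) hnot
  have := hS.card_const hf hg
  omega

/-- Every center has a neighbour. -/
theorem exists_rel {x f} (hx : S x f) : ∃ y, (∃ g, S y g) ∧ Rel B S x y := by
  by_contra hcon
  push Not at hcon
  refine hS.no_rad hx (fun z g hz => ?_)
  by_contra hne
  have h1 : Rel B S z x := ⟨g, hz, hne⟩
  exact hcon z ⟨g, hz⟩ (hS.rel_symm h1 ⟨f, hx⟩)

theorem s2' {x f y g} (hx : S x f) (hy : S y g) (h1 : B y f ≠ 0) (h2 : B x g ≠ 0) :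
    S (x + y) (f + (- B y f / B x g) • g) := by
  refine hS.s2 hx (hS.smul_right _ (div_ne_zero (neg_ne_zero.mpr h1) h2) hy) ?_ ?_
  · rw [map_smul, smul_eq_mul]
    field_simp
    ring
  · rw [map_smul, smul_eq_mul]
    exact mul_ne_zero (div_ne_zero (neg_ne_zero.mpr h1) h2) h2

theorem center_add {x y} (h : Rel B S x y) (hy : ∃ g, S y g) : ∃ k, S (x + y) k := by
  obtain ⟨f, hf, hne⟩ := h
  obtain ⟨g, hg, hne'⟩ := hS.rel_symm ⟨f, hf, hne⟩ hy
  exact ⟨_, hS.s2' hf hg hne hne'⟩

/-- Distance at most two. -/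
theorem dist_two {a f b g} (ha : S a f) (hb : S b g) :
    a = b ∨ Rel B S a b ∨ ∃ z, (∃ k, S z k) ∧ Rel B S a z ∧ Rel B S z b := by
  refine hS.conn (fun v _ => a = v ∨ Rel B S a v ∨ ∃ z, (∃ k, S z k) ∧ Rel B S a z ∧ Rel B S z v)
    ?_ a f b g ha (Or.inl rfl) hb
  intro v k v' k' hv hD hv' hadj
  have hvv' : Rel B S v v' := by
    rcases hadj with h | h
    · exact ⟨k, hv, h⟩
    · exact hS.rel_symm ⟨k', hv', h⟩ ⟨k, hv⟩
  rcases hD with rfl | hD | ⟨z, hz, haz, hzv⟩
  · exact Or.inr (Or.inl hvv')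
  · exact Or.inr (Or.inr ⟨v, ⟨k, hv⟩, hD, hvv'⟩)
  · by_cases h1 : Rel B S a v
    · exact Or.inr (Or.inr ⟨v, ⟨k, hv⟩, h1, hvv'⟩)
    by_cases h2 : Rel B S z v'
    · exact Or.inr (Or.inr ⟨z, hz, haz, h2⟩)
    by_cases h3 : Rel B S a v'
    · exact Or.inr (Or.inl h3)
    -- the new intermediate vertex
    have hzv' : ∃ l, S (z + v) l := hS.center_add hzv ⟨k, hv⟩
    refine Or.inr (Or.inr ⟨z + v, hzv', ?_, ?_⟩)
    · obtain ⟨l, hl, hne⟩ := haz
      refine ⟨l, hl, ?_⟩
      have h0 : B v l = 0 := by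
        by_contra h5
        exact h1 ⟨l, hl, h5⟩
      rw [map_add, LinearMap.add_apply, h0, add_zero]
      exact hne
    · have h4 : Rel B S v' v := hS.rel_symm hvv' ⟨k', hv'⟩
      obtain ⟨l, hl, hne⟩ := h4
      have h5 : Rel B S v' (z + v) := by
        refine ⟨l, hl, ?_⟩
        have h0 : B z l = 0 := by
          by_contra h6
          exact h2 (hS.rel_symm ⟨l, hl, h6⟩ hz)
        rw [map_add, LinearMap.add_apply, h0, zero_add]
        exact hne
      exact hS.rel_symm h5 hzv'

/-- Two centers have a common neighbour. -/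
theorem common_nbr {a f b g} (ha : S a f) (hb : S b g) :
    ∃ z, (∃ k, S z k) ∧ Rel B S a z ∧ Rel B S z b := by
  rcases hS.dist_two ha hb with rfl | h | h
  · obtain ⟨y, hy, hr⟩ := hS.exists_rel ha
    exact ⟨y, hy, hr, hS.rel_symm hr hy⟩
  · obtain ⟨y, hy, hr⟩ := hS.exists_rel hb
    by_cases h1 : Rel B S a y
    · exact ⟨y, hy, h1, hS.rel_symm hr hy⟩
    · have hyb : ∃ l, S (y + b) l := hS.center_add (hS.rel_symm hr hy) ⟨g, hb⟩
      refine ⟨y + b, hyb, ?_, ?_⟩
      · obtain ⟨l, hl, hne⟩ := h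
        refine ⟨l, hl, ?_⟩
        have h0 : B y l = 0 := by
          by_contra h5
          exact h1 ⟨l, hl, h5⟩
        rw [map_add, LinearMap.add_apply, h0, zero_add]
        exact hne
      · obtain ⟨l, hl, hne⟩ := hr
        have h5 : Rel B S b (y + b) := by
          refine ⟨l, hl, ?_⟩
          rw [map_add, LinearMap.add_apply, hS.iso hl, add_zero]
          exact hne
        exact hS.rel_symm h5 hyb
  · exact h

omit [Finite X] [Finite Y] in
/-- Avoiding two hyperplanes. -/
theorem avoid2 {z g₁ g₂ a b} (h₁ : S z g₁) (h₂ : S z g₂) (ha : B a g₁ ≠ 0) (hb : B b g₂ ≠ 0) :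
    ∃ g, S z g ∧ B a g ≠ 0 ∧ B b g ≠ 0 := by
  by_cases h1 : B b g₁ = 0
  · by_cases h2 : B a g₂ = 0
    · refine ⟨g₁ + g₂, hS.add_right h₁ h₂ ?_, ?_, ?_⟩
      · intro h
        apply ha
        have : g₁ = - g₂ := by rw [eq_neg_iff_add_eq_zero]; exact h
        rw [this, map_neg, h2, neg_zero]
      · rw [map_add, h2, add_zero]; exact ha
      · rw [map_add, h1, zero_add]; exact hb
    · exact ⟨g₂, h₂, h2, hb⟩
  · exact ⟨g₁, h₁, ha, h1⟩

end RS0

end Cfsg.Agent.Lib.Root.McL
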