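import Cfsg.Agent.Lib.Root.McL.Basic

/-! Root-pair systems whose centers carry at least two independent functionals. -/

set_option autoImplicit false

namespace Cfsg.Agent.Lib.Root.McL

variable {F X Y : Type*} [Field F] [AddCommGroup X] [AddCommGroup Y] [Module F X] [Module F Y]
variable {B : X →ₗ[F] Y →ₗ[F] F} {S : X → Y → Prop}

variable (F) in
/-- The span of the centers. -/
def Wsp (S : X → Y → Prop) : Submodule F X := Submodule.span F {x | ∃ f, S x f}

variable (F) in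
/-- The span of the axes. -/
def Msp (S : X → Y → Prop) : Submodule F Y := Submodule.span F {f | ∃ x, S x f}

variable (F) in
/-- A center with two independent functionals. -/
def Big (S : X → Y → Prop) (z : X) : Prop := ∃ f g, S z f ∧ S z g ∧ ∀ c : F, g ≠ c • f

omit [AddCommGroup X] [AddCommGroup Y] [Module F X] [Module F Y] in
theorem exists_sign (h2 : (2 : F) ≠ 0) (a b : F) (hb : b ≠ 0) :
    ∃ e : F, e ≠ 0 ∧ a + e * b ≠ 0 := by
  by_cases h : a + 1 * b = 0
  · refine ⟨-1, neg_ne_zero.mpr one_ne_zero, ?_⟩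
    intro h'
    have : (2 : F) * b = 0 := by linear_combination h - h'
    exact (mul_ne_zero h2 hb) this
  · exact ⟨1, one_ne_zero, h⟩

namespace RS0

variable (hS : RS0 B S)
include hS

theorem add3a {x f₁ y f₂ z g} (hx : S x f₁) (hy : S y f₂) (hz : S z g) (h1 : B y f₁ = 0)
    (h2 : B x f₂ = 0) (h3 : B z f₁ ≠ 0) (h4 : B z f₂ ≠ 0) (h5 : B x g ≠ 0) (h6 : B y g ≠ 0)
    (h7 : B x g + B y g ≠ 0) :
    S (x + y) ((- B x g / B z f₁) • f₁ + (- B y g / B z f₂) • f₂) := by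
  set c₁ := - B x g / B z f₁ with hc₁
  set c₂ := - B y g / B z f₂ with hc₂
  have e₁ : c₁ * B z f₁ = - B x g := by rw [hc₁]; field_simp
  have e₂ : c₂ * B z f₂ = - B y g := by rw [hc₂]; field_simp
  have hc₁0 : c₁ ≠ 0 := div_ne_zero (neg_ne_zero.mpr h5) h3
  have hc₂0 : c₂ ≠ 0 := div_ne_zero (neg_ne_zero.mpr h6) h4
  have s1 : S (x + z) (c₁ • f₁ + g) := by
    refine hS.s2 (hS.smul_right c₁ hc₁0 hx) hz ?_ h5
    rw [map_smul, smul_eq_mul, e₁]; ring
  have s2 : S (x + z + y) ((c₁ • f₁ + g) + c₂ • f₂) := by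
    refine hS.s2 s1 (hS.smul_right c₂ hc₂0 hy) ?_ ?_
    · simp only [map_add, map_smul, smul_eq_mul, LinearMap.add_apply, h1, h2, mul_zero, zero_add]
      rw [e₂]; ring
    · simp only [map_add, map_smul, smul_eq_mul, LinearMap.add_apply, h2, mul_zero, zero_add]
      rw [e₂]; exact neg_ne_zero.mpr h6
  have hm : (-1 : F) ≠ 0 := neg_ne_zero.mpr one_ne_zero
  have s3 : S ((-1 : F) • z) ((-1 : F) • g) := hS.smul_left _ hm (hS.smul_right _ hm hz)
  have hzg : B z g = 0 := hS.iso hz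
  have hzf₁ := h3
  have s4 := hS.s2 s2 s3 ?_ ?_
  · have e3 : x + z + y + (-1 : F) • z = x + y := by rw [neg_smul, one_smul]; abel
    have e4 : (c₁ • f₁ + g) + c₂ • f₂ + (-1 : F) • g = c₁ • f₁ + c₂ • f₂ := by
      rw [neg_smul, one_smul]; abel
    rw [e3, e4] at s4
    exact s4
  · simp only [map_add, map_smul, smul_eq_mul, LinearMap.add_apply, LinearMap.smul_apply, hzg]
    linear_combination (-1) * e₁ + (-1) * e₂
  · simp only [map_add, map_smul, smul_eq_mul, LinearMap.add_apply, hzg]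
    intro h
    apply h7
    linear_combination -h

variable [Finite X] [Finite Y]

theorem good {x f y f' z g} (hx : S x f) (hy : S y f') (hxy : ¬ Rel B S x y) (hyx : ¬ Rel B S y x)
    (hz : S z g) (h5 : B x g ≠ 0) (h6 : B y g ≠ 0) (h7 : B x g + B y g ≠ 0) : ∃ k, S (x + y) k := by
  obtain ⟨f₁, hf₁, h3⟩ := hS.rel_symm ⟨g, hz, h5⟩ ⟨f, hx⟩
  obtain ⟨f₂, hf₂, h4⟩ := hS.rel_symm ⟨g, hz, h6⟩ ⟨f', hy⟩
  have h1 : B y f₁ = 0 := by
    by_contra h
    exact hxy ⟨f₁, hf₁, h⟩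
  have h2 : B x f₂ = 0 := by
    by_contra h
    exact hyx ⟨f₂, hf₂, h⟩
  exact ⟨_, hS.add3a hf₁ hf₂ hz h1 h2 h3 h4 h5 h6 h7⟩

/-- Mixing `(z, g)` and `(z', g')`. -/
theorem improve (h2 : (2 : F) ≠ 0) {x f y f' z g z' g'} (hx : S x f) (hy : S y f') (hxy : ¬ Rel B S x y)
    (hyx : ¬ Rel B S y x) (hz : S z g) (hz' : S z' g') (h5 : B x g ≠ 0) (h6 : B y g ≠ 0)
    (h8 : B z' g ≠ 0) (h9 : B z g' ≠ 0) (h10 : B x g' ≠ 0) (h11 : B y g' = 0) : ∃ k, S (x + y) k := by
  by_cases h7 : B x g + B y g = 0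
  · obtain ⟨e, he, hne⟩ := exists_sign h2 (B x g) (B x g') h10
    have s1 : S (z + (- e * B z g' / B z' g) • z') (g + e • g') := by
      refine hS.s2 hz (hS.smul_left _ ?_ (hS.smul_right e he hz')) ?_ ?_
      · exact div_ne_zero (mul_ne_zero (neg_ne_zero.mpr he) h9) h8
      · simp only [map_smul, smul_eq_mul, LinearMap.smul_apply]
        field_simp
        ring
      · rw [map_smul, smul_eq_mul]
        exact mul_ne_zero he h9
    refine hS.good hx hy hxy hyx s1 ?_ ?_ ?_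
    · rw [map_add, map_smul, smul_eq_mul]; exact hne
    · rw [map_add, map_smul, smul_eq_mul, h11, mul_zero, add_zero]; exact h6
    · simp only [map_add, map_smul, smul_eq_mul, h11, mul_zero, add_zero]
      intro h
      exact (mul_ne_zero he h10) (by linear_combination h - h7)
  · exact hS.good hx hy hxy hyx hz h5 h6 h7

/-- The orthogonal case with a witness not killing `x + y`, one functional nonzero at `x`. -/
theorem center_add_aux (h2 : (2 : F) ≠ 0) {x f y f' z' g'} (hx : S x f) (hy : S y f')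
    (hxy : ¬ Rel B S x y) (hyx : ¬ Rel B S y x) (hz' : S z' g') (h7 : B x g' + B y g' ≠ 0)
    (h8 : B x g' ≠ 0) : ∃ k, S (x + y) k := by
  obtain ⟨z, ⟨k₀, hk₀⟩, hxz, hzy⟩ := hS.common_nbr hx hy
  have hzx : Rel B S z x := hS.rel_symm hxz ⟨k₀, hk₀⟩
  obtain ⟨g₁, hg₁, hg₁x⟩ := hzx
  obtain ⟨g₂, hg₂, hg₂y⟩ := hzy
  obtain ⟨g, hg, hgx, hgy⟩ := hS.avoid2 hg₁ hg₂ hg₁x hg₂y
  have hxz' : Rel B S x z' := hS.rel_symm ⟨g', hz', h8⟩ ⟨f, hx⟩
  obtain ⟨a₁, ha₁, ha₁z⟩ := hxz
  obtain ⟨a₂, ha₂, ha₂z'⟩ := hxz'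
  obtain ⟨l, hl, hlz, hlz'⟩ := hS.avoid2 ha₁ ha₂ ha₁z ha₂z'
  obtain ⟨e, he, hne⟩ := exists_sign h2 (B z' g) (B z' l) hlz'
  have hly : B y l = 0 := by
    by_contra h
    exact hxy ⟨l, hl, h⟩
  have hlx : B x l = 0 := hS.iso hl
  -- the new root pair
  have s1 : S (z + (- e * B z l / B x g) • x) (g + e • l) := by
    refine hS.s2 hg (hS.smul_left _ ?_ (hS.smul_right e he hl)) ?_ ?_
    · exact div_ne_zero (mul_ne_zero (neg_ne_zero.mpr he) hlz) hgx
    · simp only [map_smul, smul_eq_mul, LinearMap.smul_apply]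
      field_simp
      ring
    · rw [map_smul, smul_eq_mul]
      exact mul_ne_zero he hlz
  set z₀ := z + (- e * B z l / B x g) • x with hz₀
  set g₀ := g + e • l with hg₀
  have hg₀x : B x g₀ ≠ 0 := by
    rw [hg₀, map_add, map_smul, smul_eq_mul, hlx, mul_zero, add_zero]; exact hgx
  have hg₀y : B y g₀ ≠ 0 := by
    rw [hg₀, map_add, map_smul, smul_eq_mul, hly, mul_zero, add_zero]; exact hgy
  have hg₀z' : B z' g₀ ≠ 0 := by
    rw [hg₀, map_add, map_smul, smul_eq_mul]; exact hne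
  obtain ⟨g₃, hg₃, hg₃z₀⟩ := hS.rel_symm ⟨g₀, s1, hg₀z'⟩ ⟨g', hz'⟩
  -- a generic functional at `z'`
  have hB : ∀ a : Y, B (x + y) a = B x a + B y a := fun a => by
    rw [map_add, LinearMap.add_apply]
  obtain ⟨g'', hg'', h1, h3⟩ := hS.avoid2 hz' hg₃ (a := x + y) (b := z₀) (by rw [hB]; exact h7) hg₃z₀
  rw [hB] at h1
  by_cases hxg : B x g'' = 0
  · -- only `y` sees `g''`
    have hyg : B y g'' ≠ 0 := by
      intro h
      rw [hxg, h, add_zero] at h1
      exact h1 rfl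
    rw [add_comm x y]
    exact hS.improve h2 hy hx hyx hxy s1 hg'' hg₀y hg₀x hg₀z' h3 hyg hxg
  · by_cases hyg : B y g'' = 0
    · exact hS.improve h2 hx hy hxy hyx s1 hg'' hg₀x hg₀y hg₀z' h3 hxg hyg
    · exact hS.good hx hy hxy hyx hg'' hxg hyg h1

theorem center_add_orth (h2 : (2 : F) ≠ 0) {x f y f' z' g'} (hx : S x f) (hy : S y f')
    (hxy : ¬ Rel B S x y) (hyx : ¬ Rel B S y x) (hz' : S z' g') (h7 : B x g' + B y g' ≠ 0) :
    ∃ k, S (x + y) k := by
  by_cases h8 : B x g' = 0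
  · have h9 : B y g' ≠ 0 := by
      intro h
      rw [h8, h, add_zero] at h7
      exact h7 rfl
    rw [add_comm x y]
    exact hS.center_add_aux h2 hy hx hyx hxy hz' (by rwa [add_comm]) h9
  · exact hS.center_add_aux h2 hx hy hxy hyx hz' h7 h8

omit [Finite X] [Finite Y] in
theorem big_exists {z} (hb : Big F S z) (a : X) : ∃ h, S z h ∧ B a h = 0 := by
  obtain ⟨f, g, hf, hg, hne⟩ := hb
  by_cases h0 : B a f = 0
  · exact ⟨f, hf, h0⟩
  · set c := - (B a g / B a f) with hc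
    have hmem : g + c • f ∈ hS.D z := (hS.D z).add_mem (Or.inr hg) ((hS.D z).smul_mem _ (Or.inr hf))
    have hne0 : g + c • f ≠ 0 := by
      intro h
      apply hne (-c)
      rw [neg_smul]
      exact eq_neg_of_add_eq_zero_left h
    refine ⟨g + c • f, hmem.resolve_left hne0, ?_⟩
    rw [map_add, map_smul, smul_eq_mul, hc]
    field_simp
    ring

theorem not_rad_of_big {x f y f'} (hx : S x f) (hy : S y f') (hne : x + y ≠ 0)
    (hbig : ∀ z k, S z k → Big F S z) (hall : ∀ z g, S z g → B x g + B y g = 0) : False := by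
  obtain ⟨z, ⟨k, hk⟩, f₁, hf₁, hz⟩ := hS.exists_rel hx
  obtain ⟨g, hg, hgx⟩ := hS.rel_symm ⟨f₁, hf₁, hz⟩ ⟨k, hk⟩
  have hgy : B y g ≠ 0 := by
    intro h
    apply hgx
    have := hall z g hg
    rw [h, add_zero] at this
    exact this
  obtain ⟨f₂, hf₂, hz2⟩ := hS.rel_symm ⟨g, hg, hgy⟩ ⟨f', hy⟩
  obtain ⟨h, hh, hhx⟩ := hS.big_exists (hbig z k hk) x
  have hhy : B y h = 0 := by
    have := hall z h hh
    rw [hhx, zero_add] at this
    exact this
  have s1 : S x h := hS.s3 hf₁ hh hz hhx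
  have s2 : S y h := hS.s3 hf₂ hh hz2 hhy
  have s3 : S (x + y) h := hS.add_left s1 s2 hne
  refine hS.no_rad s3 (fun a b hab => ?_)
  rw [map_add, LinearMap.add_apply]
  exact hall a b hab

theorem big_center_add (h2 : (2 : F) ≠ 0) {x f y f'} (hx : S x f) (hy : S y f') (hne : x + y ≠ 0)
    (hbig : ∀ z k, S z k → Big F S z) : ∃ k, S (x + y) k := by
  by_cases hxy : Rel B S x y
  · exact hS.center_add hxy ⟨f', hy⟩
  by_cases hyx : Rel B S y x
  · exact absurd (hS.rel_symm hyx ⟨f, hx⟩) hxy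
  by_cases hall : ∀ z g, S z g → B x g + B y g = 0
  · exact (hS.not_rad_of_big hx hy hne hbig hall).elim
  · push Not at hall
    obtain ⟨z, g, hz, hg⟩ := hall
    exact hS.center_add_orth h2 hx hy hxy hyx hz hg

theorem big_center (h2 : (2 : F) ≠ 0) (hbig : ∀ z k, S z k → Big F S z) {x : X} (hx : x ∈ Wsp F S)
    (hne : x ≠ 0) : ∃ k, S x k := by
  have key : ∀ x ∈ Wsp F S, x = 0 ∨ ∃ k, S x k := by
    intro x hx
    induction hx using Submodule.span_induction with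
    | mem y hy => exact Or.inr hy
    | zero => exact Or.inl rfl
    | add a b _ _ ha hb =>
      rcases ha with rfl | ⟨k, hk⟩
      · simpa using hb
      · rcases hb with rfl | ⟨k', hk'⟩
        · right; exact ⟨k, by simpa using hk⟩
        · by_cases h : a + b = 0
          · exact Or.inl h
          · exact Or.inr (hS.big_center_add h2 hk hk' h hbig)
    | smul c a _ ha =>
      rcases ha with rfl | ⟨k, hk⟩
      · left; simp
      · by_cases hc : c = 0
        · left; simp [hc]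
        · exact Or.inr ⟨k, hS.smul_left c hc hk⟩
  exact (key x hx).resolve_left hne

omit [Finite X] [Finite Y] in
theorem center_rad {x : X} (hc : x ≠ 0 → ∃ k, S x k) (h : ∀ z g, S z g → B x g = 0) : x = 0 := by
  by_contra hne
  obtain ⟨k, hk⟩ := hc hne
  exact hS.no_rad hk h

/-- All centers big, or all centers small. -/
theorem big_or_small :
    (∀ z k, S z k → Big F S z) ∨ (∀ z f g, S z f → S z g → ∃ c : F, g = c • f) := by
  by_cases hall : ∀ z f g, S z f → S z g → ∃ c : F, g = c • f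
  · exact Or.inr hall
  · left
    push Not at hall
    obtain ⟨z₀, f₀, g₀, h₁, h₂, h₃⟩ := hall
    intro z k hz
    refine hS.conn (fun z _ => Big F S z) ?_ z₀ f₀ z k h₁ ⟨f₀, g₀, h₁, h₂, h₃⟩ hz
    intro v a v' a' hv hb hv' hadj
    have hr : Rel B S v' v := by
      rcases hadj with h | h
      · exact hS.rel_symm ⟨a, hv, h⟩ ⟨a', hv'⟩
      · exact ⟨a', hv', h⟩
    obtain ⟨g₁, hg₁, hg₁v⟩ := hr
    obtain ⟨h, hh, hh0⟩ := hS.big_exists hb v'
    refine ⟨h, g₁, hS.s3 hg₁ hh hg₁v hh0, hg₁, fun c hc => hg₁v ?_⟩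
    rw [hc, map_smul, hS.iso hh, smul_zero]

end RS0

end Cfsg.Agent.Lib.Root.McL
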