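import Cfsg.Agent.Lib.Root.McL.Group

/-! Connected components of the transvections of a group `H` with `O_p(H) = 1`. -/

set_option autoImplicit false

namespace Cfsg.Agent.Lib.Root.McL

open Module

variable {p : ℕ} [Fact p.Prime] {V : Type*} [AddCommGroup V] [Module (ZMod p) V]
variable {H : Subgroup (V ≃ₗ[ZMod p] V)}

/-- The transvections of `H`. -/
def TG (H : Subgroup (V ≃ₗ[ZMod p] V)) : Set (V ≃ₗ[ZMod p] V) :=
  {t | ∃ v f, SH H v f ∧ IsT t v f}

theorem SH.elt {v : V} {f : Dual (ZMod p) V} (h : SH H v f) {t : V ≃ₗ[ZMod p] V} (ht : IsT t v f) :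
    t ∈ H := by
  obtain ⟨-, -, -, t', ht', hT'⟩ := h
  rwa [ht.eq hT']

theorem TG_le : Subgroup.closure (TG H) ≤ H := by
  rw [Subgroup.closure_le]
  rintro t ⟨v, f, h, ht⟩
  exact h.elt ht

theorem IsT.commute {t t' : V ≃ₗ[ZMod p] V} {v y : V} {f g : Dual (ZMod p) V} (h : IsT t v f)
    (h' : IsT t' y g) (h1 : f y = 0) (h2 : g v = 0) : t * t' = t' * t := by
  apply LinearEquiv.ext
  intro x
  rw [LinearEquiv.mul_apply, LinearEquiv.mul_apply, h', h, h, h', map_add, map_add, map_smul, map_smul,
    h1, h2, smul_zero, smul_zero, add_zero, add_zero]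
  abel

theorem IsT.ne_one {t : V ≃ₗ[ZMod p] V} {v : V} {f : Dual (ZMod p) V} (h : IsT t v f) (hv : v ≠ 0)
    (hf : f ≠ 0) : t ≠ 1 := by
  rintro rfl
  apply hf
  ext x
  have h1 := h x
  have h2 : x = x + f x • v := h1
  have h3 : f x • v = 0 := by simpa using h2
  simpa [hv] using h3

theorem IsT.conj' {a g : V ≃ₗ[ZMod p] V} {v y : V} {k l : Dual (ZMod p) V} (ha : IsT a v k)
    (hg : IsT g y l) (hl : l y = 0) : IsT (g * a * g⁻¹) (v + l v • y) (k - k y • l) := by
  have h1 := ha.conj g
  have h2 := hg.inv hl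
  have e1 : g v = v + l v • y := hg v
  have e2 : k.comp (g⁻¹ : V ≃ₗ[ZMod p] V).toLinearMap = k - k y • l := by
    ext z
    show k ((g⁻¹ : V ≃ₗ[ZMod p] V) z) = _
    rw [h2 z]
    simp only [map_add, map_smul, LinearMap.neg_apply, smul_eq_mul, LinearMap.sub_apply,
      LinearMap.smul_apply]
    ring
  rwa [e1, e2] at h1

/-- Subgroup of elements mapping a subspace into itself. -/
def stabSub (W : Submodule (ZMod p) V) : Subgroup (V ≃ₗ[ZMod p] V) where
  carrier := {h | (∀ w ∈ W, h w ∈ W) ∧ ∀ w ∈ W, (h⁻¹ : V ≃ₗ[ZMod p] V) w ∈ W}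
  mul_mem' := by
    rintro a b ⟨h1, h2⟩ ⟨h3, h4⟩
    refine ⟨fun w hw => h1 _ (h3 w hw), fun w hw => ?_⟩
    rw [mul_inv_rev]
    exact h4 _ (h2 w hw)
  one_mem' := ⟨fun _ h => h, fun _ h => h⟩
  inv_mem' := by
    rintro a ⟨h1, h2⟩
    refine ⟨h2, fun w hw => ?_⟩
    rw [inv_inv]
    exact h1 w hw

section classes

/-- The index type of pairs. -/
abbrev Dom (H : Subgroup (V ≃ₗ[ZMod p] V)) := {σ : V × Dual (ZMod p) V // SH H σ.1 σ.2}

/-- Non-commuting pairs. -/
def adjD (H : Subgroup (V ≃ₗ[ZMod p] V)) (a b : Dom H) : Prop :=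
  a.1.2 b.1.1 ≠ 0 ∨ b.1.2 a.1.1 ≠ 0

/-- The components. -/
abbrev QQ (H : Subgroup (V ≃ₗ[ZMod p] V)) := Quot (adjD H)

/-- The pair as an element of `Dom`. -/
def mkD {v : V} {f : Dual (ZMod p) V} (h : SH H v f) : Dom H := ⟨(v, f), h⟩

/-- The pairs in a given component. -/
def Sq (q : QQ H) (v : V) (f : Dual (ZMod p) V) : Prop :=
  ∃ h : SH H v f, Quot.mk (adjD H) (mkD h) = q

theorem same_of_adj {v v' : V} {f f' : Dual (ZMod p) V} (h : SH H v f) (h' : SH H v' f')
    (hadj : f v' ≠ 0 ∨ f' v ≠ 0) : Quot.mk (adjD H) (mkD h) = Quot.mk (adjD H) (mkD h') :=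
  Quot.sound hadj

section main

variable (hgen : H ≤ Subgroup.closure (TG H)) (hOp : Cfsg.pCore p ↥H = ⊥)
include hgen hOp

theorem exists_nbr {v : V} {f : Dual (ZMod p) V} (h : SH H v f) :
    ∃ y g, SH H y g ∧ (f y ≠ 0 ∨ g v ≠ 0) := by
  by_contra hcon
  push Not at hcon
  obtain ⟨h1, h2, h3, t, ht, hT⟩ := id h
  have hcent : H ≤ Subgroup.centralizer {t} := by
    refine hgen.trans ?_
    rw [Subgroup.closure_le]
    rintro t' ⟨y, g, hy, hT'⟩
    rw [SetLike.mem_coe, Subgroup.mem_centralizer_iff]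
    rintro _ rfl
    have := hcon y g hy
    exact hT.commute hT' this.1 this.2
  have hcomm : ∀ h' ∈ H, Commute h' t := by
    intro h' hh'
    have := (Subgroup.mem_centralizer_iff.mp (hcent hh')) t rfl
    exact this.symm
  have hN := pcore_elim (p := p) (Subgroup.zpowers t) (by simpa using ht) ?_ ?_ hOp
  · have h4 : t ∈ Subgroup.zpowers t := Subgroup.mem_zpowers t
    rw [hN, Subgroup.mem_bot] at h4
    exact hT.ne_one h1 h2 h4
  · rintro h' hh' n ⟨k, rfl⟩
    have := ((hcomm h' hh').zpow_right k).eq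
    show h' * t ^ k * h'⁻¹ ∈ _
    rw [this, mul_inv_cancel_right]
    exact ⟨k, rfl⟩
  · rintro n ⟨k, rfl⟩
    show (t ^ k) ^ p = 1
    rw [← zpow_natCast, ← zpow_mul, mul_comm, zpow_mul, zpow_natCast, hT.pow_p h3, one_zpow]

theorem same_v {v : V} {f f' : Dual (ZMod p) V} (h : SH H v f) (h' : SH H v f') :
    Quot.mk (adjD H) (mkD h) = Quot.mk (adjD H) (mkD h') := by
  obtain ⟨y, g, hy, hadj⟩ := exists_nbr hgen hOp h
  by_cases h1 : g v = 0
  · have h1' : f y ≠ 0 := hadj.resolve_right (not_not.mpr h1)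
    by_cases h2 : f' y = 0
    · obtain ⟨y', g', hy', hadj'⟩ := exists_nbr hgen hOp h'
      by_cases h3 : g' v = 0
      · have h4 : f' y' ≠ 0 := hadj'.resolve_right (not_not.mpr h3)
        by_cases h5 : f y' = 0
        · have hne : f + f' ≠ 0 := by
            intro h0
            have := LinearMap.congr_fun h0 y
            rw [LinearMap.add_apply, h2, add_zero] at this
            exact h1' this
          have hc := h.add_right h' hne
          calc Quot.mk (adjD H) (mkD h) = Quot.mk (adjD H) (mkD hy) := same_of_adj h hy (Or.inl h1')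
            _ = Quot.mk (adjD H) (mkD hc) := same_of_adj hy hc (Or.inr (by
                rw [LinearMap.add_apply, h2, add_zero]; exact h1'))
            _ = Quot.mk (adjD H) (mkD hy') := same_of_adj hc hy' (Or.inl (by
                rw [LinearMap.add_apply, h5, zero_add]; exact h4))
            _ = Quot.mk (adjD H) (mkD h') := (same_of_adj h' hy' (Or.inl h4)).symm
        · exact (same_of_adj h hy' (Or.inl h5)).trans (same_of_adj h' hy' (Or.inl h4)).symm
      · exact (same_of_adj h hy' (Or.inr h3)).trans (same_of_adj h' hy' (Or.inr h3)).symm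
    · exact (same_of_adj h hy (Or.inl h1')).trans (same_of_adj h' hy (Or.inl h2)).symm
  · exact (same_of_adj h hy (Or.inr h1)).trans (same_of_adj h' hy (Or.inr h1)).symm

theorem same_f {v v' : V} {f : Dual (ZMod p) V} (h : SH H v f) (h' : SH H v' f) :
    Quot.mk (adjD H) (mkD h) = Quot.mk (adjD H) (mkD h') := by
  obtain ⟨y, g, hy, hadj⟩ := exists_nbr hgen hOp h
  by_cases h1 : f y = 0
  · have h1' : g v ≠ 0 := hadj.resolve_left (not_not.mpr h1)
    by_cases h2 : g v' = 0
    · obtain ⟨y', g', hy', hadj'⟩ := exists_nbr hgen hOp h'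
      by_cases h3 : f y' = 0
      · have h4 : g' v' ≠ 0 := hadj'.resolve_left (not_not.mpr h3)
        by_cases h5 : g' v = 0
        · have hne : v + v' ≠ 0 := by
            intro h0
            have := congrArg g h0
            rw [map_add, h2, add_zero, map_zero] at this
            exact h1' this
          have hc := h.add_left h' hne
          calc Quot.mk (adjD H) (mkD h) = Quot.mk (adjD H) (mkD hy) := same_of_adj h hy (Or.inr h1')
            _ = Quot.mk (adjD H) (mkD hc) := same_of_adj hy hc (Or.inl (by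
                rw [map_add, h2, add_zero]; exact h1'))
            _ = Quot.mk (adjD H) (mkD hy') := same_of_adj hc hy' (Or.inr (by
                rw [map_add, h5, zero_add]; exact h4))
            _ = Quot.mk (adjD H) (mkD h') := (same_of_adj h' hy' (Or.inr h4)).symm
        · exact (same_of_adj h hy' (Or.inr h5)).trans (same_of_adj h' hy' (Or.inr h4)).symm
      · exact (same_of_adj h hy' (Or.inl h3)).trans (same_of_adj h' hy' (Or.inl h3)).symm
    · exact (same_of_adj h hy (Or.inr h1')).trans (same_of_adj h' hy (Or.inr h2)).symm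
  · exact (same_of_adj h hy (Or.inl h1)).trans (same_of_adj h' hy (Or.inl h1)).symm

omit hgen hOp in
theorem same_conj {x x' : V} {f f' : Dual (ZMod p) V} (h : SH H x f) (h' : SH H x' f') (c : ZMod p) :
    Quot.mk (adjD H) (mkD (h.conj h' c)) = Quot.mk (adjD H) (mkD h) := by
  have hiso := h'.2.2.1
  by_cases hadj : f x' ≠ 0 ∨ f' x ≠ 0
  · have h1 : (f - (c * f x') • f') x' = f x' := by
      rw [LinearMap.sub_apply, LinearMap.smul_apply, hiso, smul_zero, sub_zero]
    have h2 : f' (x + (c * f' x) • x') = f' x := by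
      rw [map_add, map_smul, hiso, smul_zero, add_zero]
    have h3 := same_of_adj (h.conj h' c) h' (by rw [h1, h2]; exact hadj)
    exact h3.trans (same_of_adj h h' hadj).symm
  · push Not at hadj
    congr 1
    apply Subtype.ext
    show (x + (c * f' x) • x', f - (c * f x') • f') = (x, f)
    rw [hadj.1, hadj.2, mul_zero, zero_smul, zero_smul, add_zero, sub_zero]

/-- The flag lemma: elements of a subgroup acting trivially on the flag `0 ≤ W ≤ V`. -/
theorem noab_aux (hp3 : 3 ≤ p) (q : QQ H) (A : V → Dual (ZMod p) V → Prop) (hA : ∀ x f, A x f → Sq q x f)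
    (hconj : ∀ x f x' f', A x f → Sq q x' f' → ∀ c : ZMod p,
      A (x + (c * f' x) • x') (f - (c * f x') • f'))
    (hab : ∀ x f x' f', A x f → A x' f' → f x' = 0) (x : V) (f : Dual (ZMod p) V) : ¬ A x f := by
  intro hx
  let Ag : Set (V ≃ₗ[ZMod p] V) := {t | ∃ v k, A v k ∧ IsT t v k}
  let N := Subgroup.closure Ag
  let WA : Submodule (ZMod p) V := Submodule.span (ZMod p) {v | ∃ k, A v k}
  have hAg : ∀ t ∈ Ag, t ∈ H := by
    rintro t ⟨v, k, hv, ht⟩
    obtain ⟨h1, -⟩ := hA v k hv
    exact h1.elt ht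
  -- the generators are permuted
  have hperm : ∀ t' ∈ TG H, ∀ a ∈ Ag, t' * a * t'⁻¹ ∈ Ag := by
    rintro t' ⟨x', f', hx', ht'⟩ a ⟨v, k, hv, ha⟩
    obtain ⟨hs, hq⟩ := hA v k hv
    have hiso := hx'.2.2.1
    by_cases hadj : k x' ≠ 0 ∨ f' v ≠ 0
    · have hq' : Sq q x' f' := ⟨hx', (same_of_adj hs hx' hadj).symm.trans hq⟩
      refine ⟨_, _, ?_, ha.conj' ht' hiso⟩
      have := hconj v k x' f' hv hq' 1
      rwa [one_mul, one_mul] at this
    · push Not at hadj
      have : t' * a * t'⁻¹ = a := by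
        rw [(ha.commute ht' hadj.1 hadj.2).symm, mul_inv_cancel_right]
      rw [this]
      exact ⟨v, k, hv, ha⟩
  have hperm' : ∀ t' ∈ TG H, ∀ a ∈ Ag, t'⁻¹ * a * t' ∈ Ag := by
    rintro t' ⟨x', f', hx', ht'⟩ a ⟨v, k, hv, ha⟩
    obtain ⟨hs, hq⟩ := hA v k hv
    have hiso := hx'.2.2.1
    by_cases hadj : k x' ≠ 0 ∨ f' v ≠ 0
    · have hq' : Sq q x' f' := ⟨hx', (same_of_adj hs hx' hadj).symm.trans hq⟩
      have h1 := ha.conj' (ht'.inv hiso) (by rw [LinearMap.neg_apply, hiso, neg_zero])
      rw [inv_inv] at h1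
      refine ⟨_, _, ?_, h1⟩
      have := hconj v k x' f' hv hq' (-1)
      have e1 : (-1 * f' v) • x' = (-f') v • x' := by
        rw [neg_one_mul, LinearMap.neg_apply]
      have e2 : (-1 * k x') • f' = k x' • (-f') := by
        ext z
        simp only [LinearMap.smul_apply, LinearMap.neg_apply, smul_eq_mul]
        ring
      rwa [e1, e2] at this
    · push Not at hadj
      have : t'⁻¹ * a * t' = a := by
        rw [mul_assoc, ha.commute ht' hadj.1 hadj.2, inv_mul_cancel_left]
      rw [this]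
      exact ⟨v, k, hv, ha⟩
  let R : Subgroup (V ≃ₗ[ZMod p] V) :=
    { carrier := {h | ∀ a ∈ Ag, h * a * h⁻¹ ∈ Ag ∧ h⁻¹ * a * h ∈ Ag}
      mul_mem' := by
        rintro a b ha hb c hc
        constructor
        · have := (ha _ (hb c hc).1).1
          convert this using 1
          group
        · have := (hb _ (ha c hc).2).2
          convert this using 1
          group
      one_mem' := by
        intro a ha
        simpa using ha
      inv_mem' := by
        intro a ha c hc
        have := ha c hc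
        rw [inv_inv]
        exact ⟨this.2, this.1⟩ }
  have hHR : H ≤ R := by
    refine hgen.trans ?_
    rw [Subgroup.closure_le]
    intro t' ht' a ha
    exact ⟨hperm t' ht' a ha, hperm' t' ht' a ha⟩
  have hNbot := pcore_elim (p := p) N ?_ ?_ ?_ hOp
  · obtain ⟨t, hT⟩ := exists_isT (hA x f hx).1.2.2.1
    have h1 : t ∈ N := Subgroup.subset_closure ⟨x, f, hx, hT⟩
    rw [hNbot, Subgroup.mem_bot] at h1
    exact hT.ne_one (hA x f hx).1.1 (hA x f hx).1.2.1 h1
  · rw [Subgroup.closure_le]
    exact hAg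
  · intro h' hh' n hn
    induction hn using Subgroup.closure_induction with
    | mem a ha => exact Subgroup.subset_closure (hHR hh' a ha).1
    | one => simp
    | mul a b _ _ h1 h2 =>
      have : h' * (a * b) * h'⁻¹ = (h' * a * h'⁻¹) * (h' * b * h'⁻¹) := by group
      rw [this]
      exact N.mul_mem h1 h2
    | inv a _ h1 =>
      have : h' * a⁻¹ * h'⁻¹ = (h' * a * h'⁻¹)⁻¹ := by group
      rw [this]
      exact N.inv_mem h1
  · -- exponent `p`
    have hflag : ∀ n ∈ N, (∀ y, n y - y ∈ WA) ∧ ∀ w ∈ WA, n w = w := by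
      intro n hn
      induction hn using Subgroup.closure_induction with
      | mem a ha =>
        obtain ⟨v, k, hv, hT⟩ := ha
        have hkW : ∀ w ∈ WA, k w = 0 := by
          intro w hw
          induction hw using Submodule.span_induction with
          | mem y hy =>
            obtain ⟨l, hl⟩ := hy
            exact hab v k y l hv hl
          | zero => simp
          | add a b _ _ h1 h2 => rw [map_add, h1, h2, add_zero]
          | smul c a _ h1 => rw [map_smul, h1, smul_zero]
        refine ⟨fun y => ?_, fun w hw => ?_⟩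
        · rw [hT y, add_sub_cancel_left]
          exact WA.smul_mem _ (Submodule.subset_span ⟨k, hv⟩)
        · rw [hT w, hkW w hw, zero_smul, add_zero]
      | one => exact ⟨fun y => by simp, fun w _ => rfl⟩
      | mul a b _ _ h1 h2 =>
        refine ⟨fun y => ?_, fun w hw => ?_⟩
        · rw [LinearEquiv.mul_apply]
          have : a (b y) - y = (a (b y) - b y) + (b y - y) := by abel
          rw [this]
          exact WA.add_mem (h1.1 _) (h2.1 _)
        · rw [LinearEquiv.mul_apply, h2.2 w hw, h1.2 w hw]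
      | inv a _ h1 =>
        refine ⟨fun y => ?_, fun w hw => ?_⟩
        · have e : a (a⁻¹ y) = y := by
            show (a * a⁻¹) y = y
            rw [mul_inv_cancel]
            rfl
          have h2 := h1.1 (a⁻¹ y)
          rw [e] at h2
          have : a⁻¹ y - y = -(y - a⁻¹ y) := by abel
          rw [this]
          exact WA.neg_mem h2
        · exact inv_apply_of (h1.2 w hw)
    intro n hn
    refine pow_p_of_cube hp3 (fun y => ?_)
    have h1 := hflag n hn
    rw [h1.2 _ (h1.1 y), sub_self, map_zero, sub_zero]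

end main

end classes

end Cfsg.Agent.Lib.Root.McL
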