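import Cfsg.Agent.Lib.Root.McL.Classes

/-! Each component of the transvections of `H` gives a root-pair system. -/

set_option autoImplicit false

namespace Cfsg.Agent.Lib.Root.McL

open Module

variable {p : ℕ} [Fact p.Prime] {V : Type*} [AddCommGroup V] [Module (ZMod p) V]
variable {H : Subgroup (V ≃ₗ[ZMod p] V)}

/-- The evaluation pairing. -/
abbrev evB (p : ℕ) [Fact p.Prime] (V : Type*) [AddCommGroup V] [Module (ZMod p) V] :
    V →ₗ[ZMod p] Dual (ZMod p) V →ₗ[ZMod p] ZMod p := Dual.eval (ZMod p) V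

/-- The span of the centers of a component. -/
abbrev Wq (q : QQ H) : Submodule (ZMod p) V := Wsp (ZMod p) (Sq q)

/-- The span of the axes of a component. -/
abbrev Mq (q : QQ H) : Submodule (ZMod p) (Dual (ZMod p) V) := Msp (ZMod p) (Sq q)

/-- The common kernel of the axes of a component. -/
abbrev Uq (q : QQ H) : Submodule (ZMod p) V := (Mq q).dualCoannihilator

theorem mem_Uq {q : QQ H} {u : V} : u ∈ Uq q ↔ ∀ k ∈ Mq q, k u = 0 :=
  Submodule.mem_dualCoannihilator _

theorem Sq.mem_W {q : QQ H} {x : V} {f : Dual (ZMod p) V} (h : Sq q x f) : x ∈ Wq q :=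
  Submodule.subset_span ⟨f, h⟩

theorem Sq.mem_M {q : QQ H} {x : V} {f : Dual (ZMod p) V} (h : Sq q x f) : f ∈ Mq q :=
  Submodule.subset_span ⟨x, h⟩

theorem Sq.sh {q : QQ H} {x : V} {f : Dual (ZMod p) V} (h : Sq q x f) : SH H x f := h.1

theorem exists_of_q (q : QQ H) : ∃ x f, Sq q x f := by
  obtain ⟨a, rfl⟩ := Quot.exists_rep q
  exact ⟨a.1.1, a.1.2, a.2, rfl⟩

theorem sq_or_orth (q : QQ H) {x' : V} {f' : Dual (ZMod p) V} (h' : SH H x' f') :
    Sq q x' f' ∨ ((∀ w ∈ Wq q, f' w = 0) ∧ (∀ k ∈ Mq q, k x' = 0)) := by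
  by_cases hq : Quot.mk (adjD H) (mkD h') = q
  · exact Or.inl ⟨h', hq⟩
  · right
    have key : ∀ v k, Sq q v k → f' v = 0 ∧ k x' = 0 := by
      rintro v k ⟨h, e⟩
      by_contra hcon
      apply hq
      rw [← e]
      refine same_of_adj h' h ?_
      by_cases h1 : f' v = 0
      · exact Or.inr (fun h2 => hcon ⟨h1, h2⟩)
      · exact Or.inl h1
    constructor
    · intro w hw
      induction hw using Submodule.span_induction with
      | mem y hy =>
        obtain ⟨l, hl⟩ := hy
        exact (key y l hl).1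
      | zero => simp
      | add a b _ _ h1 h2 => rw [map_add, h1, h2, add_zero]
      | smul c a _ h1 => rw [map_smul, h1, smul_zero]
    · intro k hk
      induction hk using Submodule.span_induction with
      | mem y hy =>
        obtain ⟨l, hl⟩ := hy
        exact (key l y hl).2
      | zero => simp
      | add a b _ _ h1 h2 => rw [LinearMap.add_apply, h1, h2, add_zero]
      | smul c a _ h1 => rw [LinearMap.smul_apply, h1, smul_zero]

/-- The generators of the subgroup of a component. -/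
def gensq (q : QQ H) : Set (V ≃ₗ[ZMod p] V) := {t | ∃ v f, Sq q v f ∧ IsT t v f}

/-- The subgroup generated by the transvections of a component. -/
def Kq (q : QQ H) : Subgroup (V ≃ₗ[ZMod p] V) := Subgroup.closure (gensq q)

theorem Kq_le (q : QQ H) : Kq q ≤ H := by
  rw [Kq, Subgroup.closure_le]
  rintro t ⟨v, f, h, ht⟩
  exact h.1.elt ht

theorem H_stab_W (hgen : H ≤ Subgroup.closure (TG H)) (q : QQ H) : H ≤ stabSub (Wq q) := by
  refine hgen.trans ?_
  rw [Subgroup.closure_le]
  rintro t ⟨x', f', h', hT⟩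
  have hinv := hT.inv h'.2.2.1
  rcases sq_or_orth q h' with h1 | ⟨h1, -⟩
  · refine ⟨fun w hw => ?_, fun w hw => ?_⟩
    · rw [hT w]
      exact Submodule.add_mem _ hw (Submodule.smul_mem _ _ h1.mem_W)
    · rw [hinv w]
      exact Submodule.add_mem _ hw (Submodule.smul_mem _ _ h1.mem_W)
  · refine ⟨fun w hw => ?_, fun w hw => ?_⟩
    · rw [hT w, h1 w hw, zero_smul, add_zero]
      exact hw
    · rw [hinv w, LinearMap.neg_apply, h1 w hw, neg_zero, zero_smul, add_zero]
      exact hw

theorem H_stab_U (hgen : H ≤ Subgroup.closure (TG H)) (q : QQ H) : H ≤ stabSub (Uq q) := by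
  refine hgen.trans ?_
  rw [Subgroup.closure_le]
  rintro t ⟨x', f', h', hT⟩
  have hinv := hT.inv h'.2.2.1
  rcases sq_or_orth q h' with h1 | ⟨-, h1⟩
  · have h0 : ∀ u ∈ Uq q, f' u = 0 := fun u hu => mem_Uq.mp hu f' h1.mem_M
    refine ⟨fun w hw => ?_, fun w hw => ?_⟩
    · rw [hT w, h0 w hw, zero_smul, add_zero]
      exact hw
    · rw [hinv w, LinearMap.neg_apply, h0 w hw, neg_zero, zero_smul, add_zero]
      exact hw
  · refine ⟨fun w hw => mem_Uq.mpr (fun k hk => ?_), fun w hw => mem_Uq.mpr (fun k hk => ?_)⟩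
    · rw [hT w, map_add, map_smul, h1 k hk, smul_zero, add_zero]
      exact mem_Uq.mp hw k hk
    · rw [hinv w, map_add, map_smul, h1 k hk, smul_zero, add_zero]
      exact mem_Uq.mp hw k hk

theorem Kq_sub (q : QQ H) {g : V ≃ₗ[ZMod p] V} (hg : g ∈ Kq q) (y : V) : g y - y ∈ Wq q := by
  induction hg using Subgroup.closure_induction generalizing y with
  | mem a ha =>
    obtain ⟨v, f, h, hT⟩ := ha
    rw [hT y, add_sub_cancel_left]
    exact Submodule.smul_mem _ _ h.mem_W
  | one => simp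
  | mul a b _ _ h1 h2 =>
    rw [LinearEquiv.mul_apply]
    have : a (b y) - y = (a (b y) - b y) + (b y - y) := by abel
    rw [this]
    exact Submodule.add_mem _ (h1 _) (h2 _)
  | inv a _ h1 =>
    have e : a (a⁻¹ y) = y := by
      show (a * a⁻¹) y = y
      rw [mul_inv_cancel]
      rfl
    have h2 := h1 (a⁻¹ y)
    rw [e] at h2
    have : a⁻¹ y - y = -(y - a⁻¹ y) := by abel
    rw [this]
    exact Submodule.neg_mem _ h2

theorem Kq_fix (q : QQ H) {g : V ≃ₗ[ZMod p] V} (hg : g ∈ Kq q) {u : V} (hu : u ∈ Uq q) : g u = u := by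
  induction hg using Subgroup.closure_induction with
  | mem a ha =>
    obtain ⟨v, f, h, hT⟩ := ha
    rw [hT u, mem_Uq.mp hu f h.mem_M, zero_smul, add_zero]
  | one => rfl
  | mul a b _ _ h1 h2 => rw [LinearEquiv.mul_apply, h2, h1]
  | inv a _ h1 => exact inv_apply_of h1

theorem Kq_fix_other {q q' : QQ H} (hne : q' ≠ q) {g : V ≃ₗ[ZMod p] V} (hg : g ∈ Kq q') {w : V}
    (hw : w ∈ Wq q) : g w = w := by
  induction hg using Subgroup.closure_induction with
  | mem a ha =>
    obtain ⟨v, f, h, hT⟩ := ha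
    rcases sq_or_orth q h.1 with h1 | ⟨h1, -⟩
    · exact absurd (h.2.symm.trans h1.2) hne
    · rw [hT w, h1 w hw, zero_smul, add_zero]
  | one => rfl
  | mul a b _ _ h1 h2 => rw [LinearEquiv.mul_apply, h2, h1]
  | inv a _ h1 => exact inv_apply_of h1

/-- `W_{q'}` lies in `U_q` for `q' ≠ q`. -/
theorem W_le_U {q q' : QQ H} (hne : q' ≠ q) : Wq q' ≤ Uq q := by
  intro w hw
  refine mem_Uq.mpr (fun k hk => ?_)
  induction hw using Submodule.span_induction with
  | mem y hy =>
    obtain ⟨l, hl⟩ := hy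
    rcases sq_or_orth q hl.1 with h1 | ⟨-, h1⟩
    · exact absurd (hl.2.symm.trans h1.2) hne
    · exact h1 k hk
  | zero => simp
  | add a b _ _ h1 h2 => rw [map_add, h1, h2, add_zero]
  | smul c a _ h1 => rw [map_smul, h1, smul_zero]

theorem Kq_norm (hgen : H ≤ Subgroup.closure (TG H)) (q : QQ H) {h g : V ≃ₗ[ZMod p] V} (hh : h ∈ H)
    (hg : g ∈ Kq q) : h * g * h⁻¹ ∈ Kq q := by
  have hperm : ∀ t' ∈ TG H, ∀ a ∈ gensq q, t' * a * t'⁻¹ ∈ gensq q := by
    rintro t' ⟨x', f', hx', ht'⟩ a ⟨v, k, hv, ha⟩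
    have hiso := hx'.2.2.1
    refine ⟨_, _, ?_, ha.conj' ht' hiso⟩
    have h1 := hv.1.conj hx' 1
    have h2 := same_conj hv.1 hx' 1
    have h3 := h2.trans hv.2
    have : Sq q (v + (1 * f' v) • x') (k - (1 * k x') • f') := ⟨h1, h3⟩
    rwa [one_mul, one_mul] at this
  have hperm' : ∀ t' ∈ TG H, ∀ a ∈ gensq q, t'⁻¹ * a * t' ∈ gensq q := by
    rintro t' ⟨x', f', hx', ht'⟩ a ⟨v, k, hv, ha⟩
    have hiso := hx'.2.2.1
    have h4 := ha.conj' (ht'.inv hiso) (by rw [LinearMap.neg_apply, hiso, neg_zero])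
    rw [inv_inv] at h4
    refine ⟨_, _, ?_, h4⟩
    have h1 := hv.1.conj hx' (-1)
    have h2 := same_conj hv.1 hx' (-1)
    have h3 := h2.trans hv.2
    have : Sq q (v + (-1 * f' v) • x') (k - (-1 * k x') • f') := ⟨h1, h3⟩
    have e1 : (-1 * f' v) • x' = (-f') v • x' := by
      rw [neg_one_mul, LinearMap.neg_apply]
    have e2 : (-1 * k x') • f' = k x' • (-f') := by
      ext z
      simp only [LinearMap.smul_apply, LinearMap.neg_apply, smul_eq_mul]
      ring
    rwa [e1, e2] at this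
  let R : Subgroup (V ≃ₗ[ZMod p] V) :=
    { carrier := {h | ∀ a ∈ gensq q, h * a * h⁻¹ ∈ gensq q ∧ h⁻¹ * a * h ∈ gensq q}
      mul_mem' := by
        rintro a b ha hb c hc
        constructor
        · have := (ha _ (hb c hc).1).1
          convert this using 1
          group
        · have := (hb _ (ha c hc).2).2
          convert this using 1
          group
      one_mem' := by
        intro a ha
        simpa using ha
      inv_mem' := by
        intro a ha c hc
        have := ha c hc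
        rw [inv_inv]
        exact ⟨this.2, this.1⟩ }
  have hHR : H ≤ R := by
    refine hgen.trans ?_
    rw [Subgroup.closure_le]
    intro t' ht' a ha
    exact ⟨hperm t' ht' a ha, hperm' t' ht' a ha⟩
  induction hg using Subgroup.closure_induction with
  | mem a ha => exact Subgroup.subset_closure (hHR hh a ha).1
  | one => simp
  | mul a b _ _ h1 h2 =>
    have : h * (a * b) * h⁻¹ = (h * a * h⁻¹) * (h * b * h⁻¹) := by group
    rw [this]
    exact Subgroup.mul_mem _ h1 h2
  | inv a _ h1 =>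
    have : h * a⁻¹ * h⁻¹ = (h * a * h⁻¹)⁻¹ := by group
    rw [this]
    exact Subgroup.inv_mem _ h1

section main

variable (hgen : H ≤ Subgroup.closure (TG H)) (hOp : Cfsg.pCore p ↥H = ⊥) (hp3 : 3 ≤ p)
include hgen hOp hp3

theorem rs0 (q : QQ H) : RS0 (evB p V) (Sq q) where
  ne_left := fun h => h.1.1
  ne_right := fun h => h.1.2.1
  iso := fun h => h.1.2.2.1
  smul_left c hc := by
    rintro ⟨h, e⟩
    exact ⟨h.smul_left hc, (same_f hgen hOp _ h).trans e⟩
  smul_right c hc := by
    rintro ⟨h, e⟩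
    exact ⟨h.smul_right hc, (same_v hgen hOp _ h).trans e⟩
  add_left := by
    rintro x x' f ⟨h, e⟩ ⟨h', -⟩ hne
    exact ⟨h.add_left h' hne, (same_f hgen hOp _ h).trans e⟩
  add_right := by
    rintro x f f' ⟨h, e⟩ ⟨h', -⟩ hne
    exact ⟨h.add_right h' hne, (same_v hgen hOp _ h).trans e⟩
  conj := by
    rintro x f x' f' ⟨h, e⟩ ⟨h', -⟩ c
    exact ⟨h.conj h' c, (same_conj h h' c).trans e⟩
  conn := by
    rintro A hA x₀ f₀ x f ⟨h₀, e₀⟩ hA₀ ⟨h, e⟩
    have key : ∀ a b : Dom H, Relation.EqvGen (adjD H) a b → Quot.mk (adjD H) a = q →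
        (A a.1.1 a.1.2 ↔ A b.1.1 b.1.2) := by
      intro a b hab
      induction hab with
      | rel a b hab =>
        intro ea
        have eb : Quot.mk (adjD H) b = q := (Quot.sound hab).symm.trans ea
        constructor
        · intro ha
          exact hA a.1.1 a.1.2 b.1.1 b.1.2 ⟨a.2, ea⟩ ha ⟨b.2, eb⟩ hab
        · intro hb
          exact hA b.1.1 b.1.2 a.1.1 a.1.2 ⟨b.2, eb⟩ hb ⟨a.2, ea⟩ hab.symm
      | refl a => exact fun _ => Iff.rfl
      | symm a b hab ih =>
        intro eb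
        exact (ih ((Quot.eqvGen_sound hab).trans eb)).symm
      | trans a b c hab hbc ih1 ih2 =>
        intro ea
        exact (ih1 ea).trans (ih2 ((Quot.eqvGen_sound hab).symm.trans ea))
    exact (key (mkD h₀) (mkD h) (Quot.eqvGen_exact (e₀.trans e.symm)) e₀).mp hA₀
  noab := by
    intro A h1 h2 h3 x f
    exact noab_aux hgen hOp hp3 q A h1 h2 h3 x f

theorem faith_aux (q : QQ H) {x x' : V} {f f' : Dual (ZMod p) V} (hx : Sq q x f) (hx' : Sq q x' f')
    (h1 : ∀ z g, Sq q z g → g (x' - x) = 0) (h2 : ∀ z g, Sq q z g → (f' - f) z = 0) :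
    x' = x ∧ f' = f := by
  set W := Wq q with hW
  set U := Uq q with hU
  have hstabW := H_stab_W hgen q
  have hstabU := H_stab_U hgen q
  let N : Subgroup (V ≃ₗ[ZMod p] V) :=
    { carrier := {g | g ∈ Kq q ∧ ∀ w ∈ W, g w - w ∈ W ⊓ U}
      mul_mem' := by
        rintro a b ⟨ha, ha'⟩ ⟨hb, hb'⟩
        refine ⟨Subgroup.mul_mem _ ha hb, fun w hw => ?_⟩
        rw [LinearEquiv.mul_apply]
        have e : a (b w) - w = (a (b w) - b w) + (b w - w) := by abel
        rw [e]
        have h3 := hb' w hw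
        have hbw : b w ∈ W := (hstabW (Kq_le q hb)).1 w hw
        exact Submodule.add_mem _ (ha' _ hbw) h3
      one_mem' := by
        refine ⟨Subgroup.one_mem _, fun w _ => ?_⟩
        show w - w ∈ _
        rw [sub_self]
        exact Submodule.zero_mem _
      inv_mem' := by
        rintro a ⟨ha, ha'⟩
        refine ⟨Subgroup.inv_mem _ ha, fun w hw => ?_⟩
        have hz : (a⁻¹ : V ≃ₗ[ZMod p] V) w ∈ W := (hstabW (Kq_le q ha)).2 w hw
        have h3 := ha' _ hz
        have e : a (a⁻¹ w) = w := by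
          show (a * a⁻¹) w = w
          rw [mul_inv_cancel]
          rfl
        rw [e] at h3
        have e2 : a⁻¹ w - w = -(w - a⁻¹ w) := by abel
        rw [e2]
        exact Submodule.neg_mem _ h3 }
  have hNbot := pcore_elim (p := p) N (fun g hg => Kq_le q hg.1) ?_ ?_ hOp
  · obtain ⟨t, hT⟩ := exists_isT hx.1.2.2.1
    obtain ⟨t', hT'⟩ := exists_isT hx'.1.2.2.1
    have htK : t ∈ Kq q := Subgroup.subset_closure ⟨x, f, hx, hT⟩
    have ht'K : t' ∈ Kq q := Subgroup.subset_closure ⟨x', f', hx', hT'⟩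
    -- axes kill `x' - x`
    have hMk : ∀ k ∈ Mq q, k (x' - x) = 0 := by
      intro k hk
      induction hk using Submodule.span_induction with
      | mem y hy =>
        obtain ⟨l, hl⟩ := hy
        exact h1 l y hl
      | zero => simp
      | add a b _ _ h3 h4 => rw [LinearMap.add_apply, h3, h4, add_zero]
      | smul c a _ h3 => rw [LinearMap.smul_apply, h3, smul_zero]
    have hWk : ∀ w ∈ W, (f' - f) w = 0 := by
      intro w hw
      induction hw using Submodule.span_induction with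
      | mem y hy =>
        obtain ⟨l, hl⟩ := hy
        exact h2 y l hl
      | zero => simp
      | add a b _ _ h3 h4 => rw [map_add, h3, h4, add_zero]
      | smul c a _ h3 => rw [map_smul, h3, smul_zero]
    have hfx' : f x' = 0 := by
      have h3 := h1 x f hx
      rw [map_sub, hx.1.2.2.1, sub_zero] at h3
      exact h3
    have hmem : t * t'⁻¹ ∈ N := by
      refine ⟨Subgroup.mul_mem _ htK (Subgroup.inv_mem _ ht'K), fun w hw => ?_⟩
      have hinv := hT'.inv hx'.1.2.2.1
      rw [LinearEquiv.mul_apply, hinv w, hT, map_add, map_smul, hfx', smul_zero, add_zero]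
      have h3 : f' w = f w := by
        have := hWk w hw
        rw [LinearMap.sub_apply] at this
        exact sub_eq_zero.mp this
      rw [LinearMap.neg_apply, h3, neg_smul]
      have e : w + -(f w • x') + f w • x - w = f w • (x - x') := by
        rw [smul_sub]; abel
      rw [e]
      have hxW : x - x' ∈ W := Submodule.sub_mem _ hx.mem_W hx'.mem_W
      have hxU : x - x' ∈ U := mem_Uq.mpr (fun k hk => by
        have := hMk k hk
        rw [map_sub] at this ⊢
        linear_combination -this)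
      exact Submodule.smul_mem _ _ ⟨hxW, hxU⟩
    rw [hNbot, Subgroup.mem_bot] at hmem
    have htt : t = t' := mul_inv_eq_one.mp hmem
    subst htt
    have hvec : ∀ y, f y • x = f' y • x' := by
      intro y
      have h3 := hT y
      rw [hT' y] at h3
      exact (add_left_cancel h3).symm
    have hf0 : ∃ y, f y ≠ 0 := by
      by_contra hcon
      push Not at hcon
      exact hx.1.2.1 (LinearMap.ext hcon)
    obtain ⟨y₀, hy₀⟩ := hf0
    have hS0 := rs0 hgen hOp hp3 q
    have hxx : x = (f' y₀ / f y₀) • x' := by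
      have h3 := hvec y₀
      rw [div_eq_inv_mul, mul_smul, ← h3, smul_smul, inv_mul_cancel₀ hy₀, one_smul]
    set c := f' y₀ / f y₀ with hc
    have hc1 : c = 1 := by
      by_contra hne
      refine hS0.no_rad hx' (fun z g hz => ?_)
      have h3 := h1 z g hz
      rw [hxx, map_sub, map_smul, smul_eq_mul] at h3
      have h4 : (1 - c) * g x' = 0 := by linear_combination h3
      exact (mul_eq_zero.mp h4).resolve_left (sub_ne_zero.mpr (Ne.symm hne))
    rw [hc1, one_smul] at hxx
    refine ⟨hxx.symm, ?_⟩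
    ext y
    have h3 := hvec y
    rw [← hxx] at h3
    have h4 : (f y - f' y) • x = 0 := by rw [sub_smul, h3, sub_self]
    have h5 := (smul_eq_zero.mp h4).resolve_right hx.1.1
    exact (sub_eq_zero.mp h5).symm
  · rintro h' hh' n ⟨hn, hn'⟩
    refine ⟨Kq_norm hgen q hh' hn, fun w hw => ?_⟩
    have hz : (h'⁻¹ : V ≃ₗ[ZMod p] V) w ∈ W := (hstabW hh').2 w hw
    have h3 := hn' _ hz
    have e : (h' * n * h'⁻¹) w - w = h' (n (h'⁻¹ w) - h'⁻¹ w) := by
      have e1 : h' (h'⁻¹ w) = w := by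
        show (h' * h'⁻¹) w = w
        rw [mul_inv_cancel]
        rfl
      rw [map_sub, e1]
      rfl
    rw [e]
    exact ⟨(hstabW hh').1 _ h3.1, (hstabU hh').1 _ h3.2⟩
  · rintro n ⟨hn, hn'⟩
    refine pow_p_of_cube hp3 (fun y => ?_)
    have h3 := hn' _ (Kq_sub q hn y)
    rw [Kq_fix q hn h3.2, sub_self]

theorem rs (q : QQ H) : RS (evB p V) (Sq q) where
  toRS0 := rs0 hgen hOp hp3 q
  faith := fun hx hx' h1 h2 => faith_aux hgen hOp hp3 q hx hx' h1 h2

variable [Finite V]

theorem main_q (q : QQ H) :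
    (∀ x ∈ Wq q, x ≠ 0 → ∃ f, Sq q x f) ∧ (∀ f ∈ Mq q, f ≠ 0 → ∃ x, Sq q x f) ∧
    (∀ x ∈ Wq q, (∀ f ∈ Mq q, f x = 0) → x = 0) ∧
    (∀ f ∈ Mq q, (∀ x ∈ Wq q, f x = 0) → f = 0) ∧
    ((∀ x ∈ Wq q, ∀ f ∈ Mq q, x ≠ 0 → f ≠ 0 → f x = 0 → Sq q x f) ∨
      ∃ φ : Wq q →ₗ[ZMod p] Dual (ZMod p) V, (∀ x : Wq q, x ≠ 0 → Sq q x (φ x)) ∧
        (∀ x : Wq q, (φ x) (x : V) = 0) ∧
        (∀ (x : Wq q) (k : Dual (ZMod p) V), Sq q x k → ∃ c : ZMod p, k = c • φ x) ∧
        (∀ x, φ x ∈ Mq q) ∧ (∀ f ∈ Mq q, ∃ x : Wq q, f = φ x)) := by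
  obtain ⟨x₀, f₀, h₀⟩ := exists_of_q q
  haveI : Finite (Dual (ZMod p) V) :=
    Finite.of_injective (fun f : Dual (ZMod p) V => (f : V → ZMod p)) DFunLike.coe_injective
  have h2 : (2 : ZMod p) ≠ 0 := by
    have hp2 : ¬ p ∣ 2 := fun h => by
      have := Nat.le_of_dvd (by norm_num) h
      omega
    intro h
    apply hp2
    rw [← ZMod.natCast_eq_zero_iff]
    exact_mod_cast h
  exact (rs hgen hOp hp3 q).main h2 h₀

theorem isCompl_WU (q : QQ H) : IsCompl (Wq q) (Uq q) := by
  classical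
  obtain ⟨-, -, hrad, hrad', -⟩ := main_q hgen hOp hp3 q
  haveI : Module.Finite (ZMod p) V := Module.Finite.of_finite
  have hd1 : Disjoint (Wq q) (Uq q) := by
    rw [Submodule.disjoint_def]
    intro x hx hxU
    exact hrad x hx (fun f hf => mem_Uq.mp hxU f hf)
  have hd2 : Disjoint (Mq q) (Wq q).dualAnnihilator := by
    rw [Submodule.disjoint_def]
    intro f hf hf'
    exact hrad' f hf (fun x hx => (Submodule.mem_dualAnnihilator _).mp hf' x hx)
  have e1 : finrank (ZMod p) (Mq q) + finrank (ZMod p) (Uq q) = finrank (ZMod p) V :=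
    Subspace.finrank_add_finrank_dualCoannihilator_eq (K := ZMod p) (V := V) (Mq q)
  have e2 : finrank (ZMod p) (Wq q) + finrank (ZMod p) (Wq q).dualAnnihilator = finrank (ZMod p) V :=
    Subspace.finrank_add_finrank_dualAnnihilator_eq (K := ZMod p) (V := V) (Wq q)
  have e3 := Submodule.finrank_add_finrank_le_of_disjoint hd1
  have e4 := Submodule.finrank_add_finrank_le_of_disjoint hd2
  have e5 : finrank (ZMod p) (Dual (ZMod p) V) = finrank (ZMod p) V := Subspace.dual_finrank_eq
  have hdim : finrank (ZMod p) (Wq q) + finrank (ZMod p) (Uq q) = finrank (ZMod p) V := by omega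
  exact (Submodule.isCompl_iff_disjoint _ _ hdim.symm.le).mpr hd1

end main

end Cfsg.Agent.Lib.Root.McL
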