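import Cfsg.Agent.Lib.Root.McL.Assemble

/-! The action of a component on its subspace. -/

set_option autoImplicit false

namespace Cfsg.Agent.Lib.Root.McL

open Module

variable {p : ℕ} [Fact p.Prime] {V : Type*} [AddCommGroup V] [Module (ZMod p) V]

/-- Restriction to an invariant subspace, as a homomorphism. -/
noncomputable def resH (Z : Submodule (ZMod p) V) (K : Subgroup (V ≃ₗ[ZMod p] V)) (hK : K ≤ stabSub Z) :
    ↥K →* (↥Z ≃ₗ[ZMod p] ↥Z) where
  toFun h := (h.1).ofSubmodules Z Z (map_eq_of_stab (hK h.2))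
  map_one' := by
    apply LinearEquiv.ext
    intro x
    apply Subtype.ext
    rfl
  map_mul' a b := by
    apply LinearEquiv.ext
    intro x
    apply Subtype.ext
    rfl

theorem resH_apply (Z : Submodule (ZMod p) V) (K : Subgroup (V ≃ₗ[ZMod p] V)) (hK : K ≤ stabSub Z)
    (h : ↥K) (v : ↥Z) : ((resH Z K hK h v : ↥Z) : V) = (h : V ≃ₗ[ZMod p] V) (v : V) := rfl

theorem det_of_isT {W : Type*} [AddCommGroup W] [Module (ZMod p) W] {s : W ≃ₗ[ZMod p] W} {v : W}
    {f : Dual (ZMod p) W} (h : IsT s v f) (h0 : f v = 0) : LinearEquiv.det s = 1 := by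
  have e : s = LinearEquiv.transvection h0 := LinearEquiv.ext fun x => by
    rw [h x, LinearEquiv.transvection.apply]
  rw [e]
  exact LinearEquiv.transvection.det_eq_one h0

section main

variable {H : Subgroup (V ≃ₗ[ZMod p] V)}
variable (hgen : H ≤ Subgroup.closure (TG H)) (hOp : Cfsg.pCore p ↥H = ⊥) (hp3 : 3 ≤ p)
include hgen hOp hp3

variable [Finite V]

theorem rho_q (q : QQ H) : ∃ ρ : ↥(Kq q) →* (↥(Wq q) ≃ₗ[ZMod p] ↥(Wq q)),
    (∀ (h : ↥(Kq q)) (v : ↥(Wq q)), ((ρ h v : ↥(Wq q)) : V) = (h : V ≃ₗ[ZMod p] V) (v : V)) ∧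
    ((ρ.range : Set (↥(Wq q) ≃ₗ[ZMod p] ↥(Wq q))) =
        {f : ↥(Wq q) ≃ₗ[ZMod p] ↥(Wq q) | LinearMap.det (f : ↥(Wq q) →ₗ[ZMod p] ↥(Wq q)) = 1} ∨
      ∃ B : LinearMap.BilinForm (ZMod p) ↥(Wq q), B.IsAlt ∧ B.Nondegenerate ∧
        (ρ.range : Set (↥(Wq q) ≃ₗ[ZMod p] ↥(Wq q))) = {f : ↥(Wq q) ≃ₗ[ZMod p] ↥(Wq q) | ∀ x y, B (f x) (f y) = B x y}) := by
  classical
  have hKstab : Kq q ≤ stabSub (Wq q) := (Kq_le q).trans (H_stab_W hgen q)
  let ρ := resH (Wq q) (Kq q) hKstab
  have hρ : ∀ (h : ↥(Kq q)) (v : ↥(Wq q)), ((ρ h v : ↥(Wq q)) : V) = (h : V ≃ₗ[ZMod p] V) (v : V) :=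
    resH_apply _ _ _
  refine ⟨ρ, hρ, ?_⟩
  obtain ⟨hcen, hax, hrad, hrad', hcase⟩ := main_q hgen hOp hp3 q
  have hS0 := rs0 hgen hOp hp3 q
  -- the image of a generator
  have himg : ∀ (a : V ≃ₗ[ZMod p] V) (ha : a ∈ Kq q) (v : V) (hv : v ∈ Wq q) (f : Dual (ZMod p) V),
      IsT a v f → IsT (ρ ⟨a, ha⟩) ⟨v, hv⟩ (f.comp (Wq q).subtype) := by
    intro a ha v hv f hT x
    apply Subtype.ext
    rw [hρ]
    exact hT x
  rcases hcase with hfull | ⟨φ, h1, h3, h5, h6, h7⟩
  · left
    apply Set.eq_of_subset_of_subset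
    · -- the image has determinant one
      rintro _ ⟨⟨h, hh⟩, rfl⟩
      have key : ∀ (h : V ≃ₗ[ZMod p] V) (hh : h ∈ Kq q), LinearEquiv.det (ρ ⟨h, hh⟩) = 1 := by
        intro h hh
        induction hh using Subgroup.closure_induction with
        | mem a ha =>
          obtain ⟨v, f, hv, hT⟩ := ha
          exact det_of_isT (himg a _ v hv.mem_W f hT) hv.1.2.2.1
        | one =>
          have : (⟨1, Subgroup.one_mem _⟩ : ↥(Kq q)) = 1 := rfl
          rw [this, map_one, map_one]
        | mul a b ha hb h1 h2 =>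
          have : (⟨a * b, Subgroup.mul_mem _ ha hb⟩ : ↥(Kq q)) = ⟨a, ha⟩ * ⟨b, hb⟩ := rfl
          rw [this, map_mul, map_mul, h1, h2, one_mul]
        | inv a ha h1 =>
          have : (⟨a⁻¹, Subgroup.inv_mem _ ha⟩ : ↥(Kq q)) = (⟨a, ha⟩ : ↥(Kq q))⁻¹ := rfl
          rw [this, map_inv, map_inv, h1, inv_one]
      have h2 := key h hh
      show LinearMap.det _ = 1
      have h3 := congrArg Units.val h2
      rw [LinearEquiv.coe_det] at h3
      simpa using h3
    · -- transvections lift
      intro g hg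
      haveI : Module.Finite (ZMod p) V := Module.Finite.of_finite
      have hsub := sl_gen g hg
      have hle : Subgroup.closure {t : ↥(Wq q) ≃ₗ[ZMod p] ↥(Wq q) | ∃ v f, f v = 0 ∧ IsT t v f} ≤ ρ.range := by
        rw [Subgroup.closure_le]
        rintro t ⟨v, ζ, h0, hT⟩
        by_cases hv : v = 0
        · have : t = 1 := LinearEquiv.ext fun x => by
            rw [hT x, hv, smul_zero, add_zero]
            rfl
          rw [this]
          exact Subgroup.one_mem _
        by_cases hζ : ζ = 0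
        · have : t = 1 := LinearEquiv.ext fun x => by
            rw [hT x, hζ, LinearMap.zero_apply, zero_smul, add_zero]
            rfl
          rw [this]
          exact Subgroup.one_mem _
        -- a functional in `M` restricting to `ζ`
        let r : ↥(Mq q) →ₗ[ZMod p] Dual (ZMod p) ↥(Wq q) :=
          (Wq q).subtype.dualMap ∘ₗ (Mq q).subtype
        have hinj : Function.Injective r := by
          rw [← LinearMap.ker_eq_bot, LinearMap.ker_eq_bot']
          intro f hf
          apply Subtype.ext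
          refine hrad' f.1 f.2 (fun x hx => ?_)
          have := LinearMap.congr_fun hf ⟨x, hx⟩
          exact this
        have hfin : finrank (ZMod p) ↥(Mq q) = finrank (ZMod p) (Dual (ZMod p) ↥(Wq q)) := by
          have e1 : finrank (ZMod p) (Mq q) + finrank (ZMod p) (Uq q) = finrank (ZMod p) V :=
            Subspace.finrank_add_finrank_dualCoannihilator_eq (K := ZMod p) (V := V) (Mq q)
          have e2 := Submodule.finrank_add_eq_of_isCompl (isCompl_WU hgen hOp hp3 q)
          have e3 : finrank (ZMod p) (Dual (ZMod p) ↥(Wq q)) = finrank (ZMod p) ↥(Wq q) :=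
            Subspace.dual_finrank_eq
          omega
        have hsurj : Function.Surjective r :=
          (LinearMap.injective_iff_surjective_of_finrank_eq_finrank hfin).mp hinj
        obtain ⟨f, hf⟩ := hsurj ζ
        have hfv : ∀ x : ↥(Wq q), (f : Dual (ZMod p) V) (x : V) = ζ x := fun x =>
          LinearMap.congr_fun hf x
        have hv' : (v : V) ≠ 0 := fun h => hv (Subtype.ext h)
        have hf0 : (f : Dual (ZMod p) V) ≠ 0 := by
          intro h
          apply hζ
          ext x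
          rw [← hfv, h]
          rfl
        have hs : Sq q (v : V) (f : Dual (ZMod p) V) := hfull v v.2 f f.2 hv' hf0 (by rw [hfv, h0])
        obtain ⟨a, ha⟩ := exists_isT hs.1.2.2.1
        have haK : a ∈ Kq q := Subgroup.subset_closure ⟨_, _, hs, ha⟩
        refine ⟨⟨a, haK⟩, ?_⟩
        apply LinearEquiv.ext
        intro x
        apply Subtype.ext
        rw [hρ, hT x]
        show a x = _
        rw [ha x, hfv]
        rfl
      exact hle hsub
  · right
    -- the bilinear form
    let B₀ : LinearMap.BilinForm (ZMod p) ↥(Wq q) :=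
      LinearMap.mk₂ (ZMod p) (fun x y : ↥(Wq q) => (φ y) (x : V))
        (fun a b c => by simp)
        (fun c a b => by simp)
        (fun a b c => by simp)
        (fun c a b => by simp)
    have hB₀ : ∀ x y, B₀ x y = (φ y) (x : V) := fun x y => rfl
    have halt : B₀.IsAlt := fun x => h3 x
    have hneg : ∀ x y, B₀ x y = - B₀ y x := fun x y => (halt.neg_eq y x).symm
    have hsepR : ∀ v, (∀ z, B₀ z v = 0) → v = 0 := by
      intro v hv
      by_contra hne
      have h8 := h1 v hne
      have h9 := hrad' (φ v) (h6 v) (fun x hx => hv ⟨x, hx⟩)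
      exact h8.1.2.1 h9
    have hnd : B₀.Nondegenerate := by
      constructor
      · intro x hx
        refine hsepR x (fun z => ?_)
        rw [hneg, hx z, neg_zero]
      · intro y hy
        exact hsepR y hy
    refine ⟨B₀, halt, hnd, ?_⟩
    have key : ∀ (h : V ≃ₗ[ZMod p] V) (hh : h ∈ Kq q), ρ ⟨h, hh⟩ ∈ Subgroup.closure (spT B₀) := by
      intro h hh
      induction hh using Subgroup.closure_induction with
      | mem a ha =>
        obtain ⟨v, f, hv, hT⟩ := ha
        obtain ⟨w, hw⟩ : ∃ w : ↥(Wq q), (w : V) = v := ⟨⟨v, hv.mem_W⟩, rfl⟩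
        obtain ⟨c, hc⟩ := h5 w f (by rw [hw]; exact hv)
        refine Subgroup.subset_closure ⟨w, c, fun x => ?_⟩
        apply Subtype.ext
        rw [hρ]
        show a x = _
        rw [hT x, hc, ← hw]
        rfl
      | one => exact Subgroup.one_mem _
      | mul a b ha hb h1 h2 =>
        have : (⟨a * b, Subgroup.mul_mem _ ha hb⟩ : ↥(Kq q)) = ⟨a, ha⟩ * ⟨b, hb⟩ := rfl
        rw [this, map_mul]
        exact Subgroup.mul_mem _ h1 h2
      | inv a ha h1 =>
        have : (⟨a⁻¹, Subgroup.inv_mem _ ha⟩ : ↥(Kq q)) = (⟨a, ha⟩ : ↥(Kq q))⁻¹ := rfl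
        rw [this, map_inv]
        exact Subgroup.inv_mem _ h1
    apply Set.eq_of_subset_of_subset
    · rintro _ ⟨⟨h, hh⟩, rfl⟩ x y
      exact spT_isom halt (key h hh) x y
    · intro g hg
      have hsub := sp_gen halt hsepR g hg
      have hle : Subgroup.closure (spT B₀) ≤ ρ.range := by
        rw [Subgroup.closure_le]
        rintro t ⟨v, c, hT⟩
        by_cases hv : v = 0
        · have : t = 1 := LinearEquiv.ext fun x => by
            rw [hT x, hv, smul_zero, add_zero]
            rfl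
          rw [this]
          exact Subgroup.one_mem _
        by_cases hc : c = 0
        · have : t = 1 := LinearEquiv.ext fun x => by
            rw [hT x, hc, zero_mul, zero_smul, add_zero]
            rfl
          rw [this]
          exact Subgroup.one_mem _
        have hs : Sq q (v : V) (c • φ v) := hS0.smul_right c hc (h1 v hv)
        obtain ⟨a, ha⟩ := exists_isT hs.1.2.2.1
        have haK : a ∈ Kq q := Subgroup.subset_closure ⟨_, _, hs, ha⟩
        refine ⟨⟨a, haK⟩, ?_⟩
        apply LinearEquiv.ext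
        intro x
        apply Subtype.ext
        rw [hρ, hT x]
        show a x = _
        rw [ha x]
        rfl
      exact hle hsub

end main

/-- An element of order `p` fixing a hyperplane is a transvection. -/
theorem rank_one [Finite V] {t : V ≃ₗ[ZMod p] V} (h1 : orderOf t = p)
    (h2 : finrank (ZMod p) ↥(LinearMap.ker ((t : V →ₗ[ZMod p] V) - LinearMap.id)) + 1 = finrank (ZMod p) V) :
    ∃ v f, v ≠ 0 ∧ f ≠ 0 ∧ f v = 0 ∧ IsT t v f := by
  haveI : Module.Finite (ZMod p) V := Module.Finite.of_finite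
  set A : V →ₗ[ZMod p] V := (t : V →ₗ[ZMod p] V) - LinearMap.id with hA
  have h3 := LinearMap.finrank_range_add_finrank_ker A
  have h4 : finrank (ZMod p) (LinearMap.range A) = 1 := by omega
  obtain ⟨⟨v, hv⟩, hv0, hspan⟩ := finrank_eq_one_iff'.mp h4
  have hv' : v ≠ 0 := fun h => hv0 (Subtype.ext h)
  obtain ⟨g, hg⟩ := Module.Projective.exists_dual_eq_one (ZMod p) hv'
  have hA' : ∀ x, A x = g (A x) • v := by
    intro x
    obtain ⟨c, hc⟩ := hspan ⟨A x, LinearMap.mem_range_self A x⟩
    have hc' : c • v = A x := congrArg Subtype.val hc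
    rw [← hc', map_smul, hg, smul_eq_mul, mul_one]
  let f : Dual (ZMod p) V := g ∘ₗ A
  have hT : IsT t v f := by
    intro x
    have h5 := hA' x
    have h6 : A x = t x - x := rfl
    have h7 : t x = x + A x := by rw [h6]; abel
    rw [h7]
    congr 1
  have hfv : f v = 0 := by
    have hpow : ∀ k : ℕ, (t ^ k) v = (1 + f v) ^ k • v := by
      intro k
      induction k with
      | zero => simp
      | succ k ih =>
        rw [pow_succ, LinearEquiv.mul_apply, hT v]
        have : v + f v • v = (1 + f v) • v := by rw [add_smul, one_smul]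
        rw [this, map_smul, ih, smul_smul, pow_succ, mul_comm]
    have h5 := hpow p
    have h6 : t ^ p = 1 := by
      have := pow_orderOf_eq_one t
      rwa [h1] at this
    rw [h6, ZMod.pow_card] at h5
    have h7 : v = (1 + f v) • v := h5
    have h8 : f v • v = 0 := by
      rw [add_smul, one_smul] at h7
      simpa using h7
    exact (smul_eq_zero.mp h8).resolve_right hv'
  refine ⟨v, f, hv', ?_, hfv, hT⟩
  intro hf0
  have : t = 1 := LinearEquiv.ext fun x => by
    rw [hT x, hf0, LinearMap.zero_apply, zero_smul, add_zero]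
    rfl
  rw [this, orderOf_one] at h1
  exact (Fact.out : p.Prime).one_lt.ne h1

/-- McLaughlin's theorem for odd primes. -/
theorem mcl_main (hp : Odd p) [Finite V]
    (H : Subgroup (V ≃ₗ[ZMod p] V)) (T : Set (V ≃ₗ[ZMod p] V)) (hHT : H = Subgroup.closure T)
    (hT : ∀ t ∈ T, orderOf t = p ∧
      Module.finrank (ZMod p) ↥(LinearMap.ker ((t : V →ₗ[ZMod p] V) - LinearMap.id)) + 1 =
        Module.finrank (ZMod p) V)
    (hOp : Cfsg.pCore p ↥H = ⊥) :
    ∃ (n : ℕ) (W : Fin (n + 1) → Submodule (ZMod p) V) (K : Fin n → Subgroup (V ≃ₗ[ZMod p] V)),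
      1 ≤ n ∧ DirectSum.IsInternal W ∧
      (∀ h ∈ H, ∀ i, (W i).map (h : V →ₗ[ZMod p] V) = W i) ∧
      (∀ j, K j ≤ H ∧ ((K j).subgroupOf H).Normal) ∧ ⨆ j, K j = H ∧
      (∀ j, K j ⊓ (⨆ j' ∈ {j' : Fin n | j' ≠ j}, K j') = ⊥) ∧
      (∀ j j', j ≠ j' → ∀ a ∈ K j, ∀ b ∈ K j', a * b = b * a) ∧
      (∀ j, ∀ h ∈ K j, ∀ i : Fin (n + 1), i ≠ j.succ → ∀ v ∈ W i, h v = v) ∧
      (∀ j, ∃ ρ : ↥(K j) →* (↥(W j.succ) ≃ₗ[ZMod p] ↥(W j.succ)),
        (∀ (h : ↥(K j)) (v : ↥(W j.succ)), ((ρ h v : ↥(W j.succ)) : V) = (h : V ≃ₗ[ZMod p] V) (v : V)) ∧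
        ((ρ.range : Set (↥(W j.succ) ≃ₗ[ZMod p] ↥(W j.succ))) =
            {f : ↥(W j.succ) ≃ₗ[ZMod p] ↥(W j.succ) | LinearMap.det (f : ↥(W j.succ) →ₗ[ZMod p] ↥(W j.succ)) = 1} ∨
          ∃ B : LinearMap.BilinForm (ZMod p) ↥(W j.succ), B.IsAlt ∧ B.Nondegenerate ∧
            (ρ.range : Set (↥(W j.succ) ≃ₗ[ZMod p] ↥(W j.succ))) = {f : ↥(W j.succ) ≃ₗ[ZMod p] ↥(W j.succ) | ∀ x y, B (f x) (f y) = B x y})) := by
  classical
  have hp3 : 3 ≤ p := by
    have h2 := (Fact.out : p.Prime).two_le
    have : p ≠ 2 := by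
      rintro rfl
      exact absurd hp (by decide)
    omega
  have hTT : T ⊆ TG H := by
    intro t ht
    obtain ⟨v, f, h1, h2, h3, h4⟩ := rank_one (hT t ht).1 (hT t ht).2
    have hH : t ∈ H := by
      rw [hHT]
      exact Subgroup.subset_closure ht
    exact ⟨v, f, ⟨h1, h2, h3, t, hH, h4⟩, h4⟩
  have hgen : H ≤ Subgroup.closure (TG H) := by
    rw [hHT]
    exact Subgroup.closure_mono (by rw [← hHT]; exact hTT)
  by_cases hQ : Nonempty (QQ H)
  · haveI : Finite (Dual (ZMod p) V) :=
      Finite.of_injective (fun f : Dual (ZMod p) V => (f : V → ZMod p)) DFunLike.coe_injective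
    haveI : Finite (Dom H) := Subtype.finite
    haveI : Finite (QQ H) := Quot.finite _
    obtain ⟨n, ⟨e⟩⟩ := Finite.exists_equiv_fin (QQ H)
    have hn : 1 ≤ n := by
      obtain ⟨q⟩ := hQ
      have := (e q).2
      omega
    refine assemble hn H (fun k => Wq (e.symm k)) (fun k => Uq (e.symm k)) (fun k => Kq (e.symm k))
      (fun k => isCompl_WU hgen hOp hp3 _)
      (fun i j hij => W_le_U (fun h => hij (e.symm.injective h)))
      (fun k => H_stab_W hgen _) (fun k => H_stab_U hgen _)
      (fun k => ⟨Kq_le _, ⟨fun n hn g => Subgroup.mem_subgroupOf.mpr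
        (Kq_norm hgen _ g.2 (Subgroup.mem_subgroupOf.mp hn))⟩⟩)
      ?_
      (fun i j hij g hg w hw => Kq_fix_other (fun h => hij (e.symm.injective h).symm) hg hw)
      (fun i g hg u hu => Kq_fix _ hg hu)
      (fun k => rho_q hgen hOp hp3 _)
    apply le_antisymm
    · exact iSup_le (fun k => Kq_le _)
    · refine hgen.trans ?_
      rw [Subgroup.closure_le]
      rintro t ⟨v, f, hs, ht⟩
      let q : QQ H := Quot.mk _ (mkD hs)
      have h1 : t ∈ Kq (e.symm (e q)) := by
        rw [e.symm_apply_apply]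
        exact Subgroup.subset_closure ⟨v, f, ⟨hs, rfl⟩, ht⟩
      exact (le_iSup (fun k => Kq (e.symm k)) (e q)) h1
  · -- no transvections at all
    have hT0 : T = ∅ := by
      by_contra hne
      obtain ⟨t, ht⟩ := Set.nonempty_iff_ne_empty.mpr hne
      obtain ⟨v, f, hs, -⟩ := hTT ht
      exact hQ ⟨Quot.mk _ (mkD hs)⟩
    have hHbot : H = ⊥ := by
      rw [hHT, hT0, Subgroup.closure_empty]
    refine assemble (n := 1) le_rfl H (fun _ => ⊥) (fun _ => ⊤) (fun _ => ⊥)
      (fun _ => isCompl_bot_top) (fun _ _ h => absurd (Subsingleton.elim _ _) h)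
      ?_ ?_ ?_ ?_ ?_ ?_ ?_
    · intro _ h hh
      rw [hHbot, Subgroup.mem_bot] at hh
      rw [hh]
      exact Subgroup.one_mem _
    · intro _ h hh
      rw [hHbot, Subgroup.mem_bot] at hh
      rw [hh]
      exact Subgroup.one_mem _
    · intro _
      refine ⟨bot_le, ?_⟩
      constructor
      intro n hn g
      rw [Subgroup.mem_subgroupOf, Subgroup.mem_bot] at hn ⊢
      rw [Subgroup.coe_mul, Subgroup.coe_mul, hn]
      simp
    · rw [hHbot]
      simp
    · intro _ _ h
      exact absurd (Subsingleton.elim _ _) h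
    · intro _ g hg u _
      rw [Subgroup.mem_bot] at hg
      rw [hg]
      rfl
    · intro _
      refine ⟨1, ?_, Or.inl ?_⟩
      · intro h v
        have hv : (v : V) = 0 := (Submodule.mem_bot _).mp v.2
        have h1 : ((1 : (↥(⊥ : Submodule (ZMod p) V) ≃ₗ[ZMod p] ↥(⊥ : Submodule (ZMod p) V))) v : ↥(⊥ : Submodule (ZMod p) V)) = v := rfl
        rw [hv, map_zero]
        exact (Submodule.mem_bot _).mp (Subtype.property _)
      · ext f
        constructor
        · rintro ⟨x, rfl⟩
          simp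
        · intro _
          refine ⟨1, ?_⟩
          apply LinearEquiv.ext
          intro x
          exact Subsingleton.elim _ _

end Cfsg.Agent.Lib.Root.McL
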