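import Cfsg.Agent.Lib.Root.McL.Main
import Cfsg.Prelude.Def_Solvable

/-! Transvections in a group of linear automorphisms of a vector space over `ZMod p`. -/

set_option autoImplicit false

namespace Cfsg.Agent.Lib.Root.McL

open Module

variable {p : ℕ} [Fact p.Prime] {V : Type*} [AddCommGroup V] [Module (ZMod p) V]

/-- `t` is the transvection `x ↦ x + f x • v`. -/
def IsT (t : V ≃ₗ[ZMod p] V) (v : V) (f : Dual (ZMod p) V) : Prop := ∀ x, t x = x + f x • v

theorem IsT.eq {t t' : V ≃ₗ[ZMod p] V} {v : V} {f : Dual (ZMod p) V} (h : IsT t v f)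
    (h' : IsT t' v f) : t = t' :=
  LinearEquiv.ext fun x => by rw [h x, h' x]

theorem exists_isT {v : V} {f : Dual (ZMod p) V} (h : f v = 0) : ∃ t : V ≃ₗ[ZMod p] V, IsT t v f :=
  ⟨LinearEquiv.transvection h, fun x => LinearEquiv.transvection.apply h x⟩

theorem IsT.pow {t : V ≃ₗ[ZMod p] V} {v : V} {f : Dual (ZMod p) V} (h : IsT t v f) (hf : f v = 0)
    (k : ℕ) (x : V) : (t ^ k) x = x + (k : ZMod p) • (f x • v) := by
  induction k generalizing x with
  | zero => simp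
  | succ k ih =>
    rw [pow_succ, LinearEquiv.mul_apply, ih, h x, map_add, map_smul, hf, smul_zero, add_zero]
    push_cast
    rw [add_smul, one_smul]
    abel

theorem IsT.zmod_pow {t : V ≃ₗ[ZMod p] V} {v : V} {f : Dual (ZMod p) V} (h : IsT t v f)
    (hf : f v = 0) (c : ZMod p) : IsT (t ^ c.val) (c • v) f := by
  intro x
  rw [h.pow hf, ZMod.natCast_zmod_val, smul_comm]

theorem IsT.zmod_pow' {t : V ≃ₗ[ZMod p] V} {v : V} {f : Dual (ZMod p) V} (h : IsT t v f)
    (hf : f v = 0) (c : ZMod p) : IsT (t ^ c.val) v (c • f) := by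
  intro x
  rw [h.pow hf, ZMod.natCast_zmod_val, LinearMap.smul_apply, smul_smul, smul_eq_mul]

theorem IsT.pow_p {t : V ≃ₗ[ZMod p] V} {v : V} {f : Dual (ZMod p) V} (h : IsT t v f)
    (hf : f v = 0) : t ^ p = 1 := by
  apply LinearEquiv.ext
  intro x
  rw [h.pow hf, ZMod.natCast_self, zero_smul, add_zero]
  rfl

theorem IsT.mul_f {t t' : V ≃ₗ[ZMod p] V} {v v' : V} {f : Dual (ZMod p) V} (h : IsT t v f)
    (h' : IsT t' v' f) (h0 : f v' = 0) : IsT (t * t') (v + v') f := by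
  intro x
  rw [LinearEquiv.mul_apply, h', h, map_add, map_smul, h0, smul_zero, add_zero, smul_add]
  abel

theorem IsT.mul_v {t t' : V ≃ₗ[ZMod p] V} {v : V} {f f' : Dual (ZMod p) V} (h : IsT t v f)
    (h' : IsT t' v f') (h0 : f v = 0) : IsT (t * t') v (f + f') := by
  intro x
  rw [LinearEquiv.mul_apply, h', h, map_add, map_smul, h0, smul_zero, add_zero, LinearMap.add_apply,
    add_smul]
  abel

theorem inv_apply_of {t : V ≃ₗ[ZMod p] V} {y z : V} (h : t z = y) : t⁻¹ y = z := by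
  rw [← h]
  show (t⁻¹ * t) z = z
  rw [inv_mul_cancel]
  rfl

theorem IsT.inv {t : V ≃ₗ[ZMod p] V} {v : V} {f : Dual (ZMod p) V} (h : IsT t v f) (hf : f v = 0) :
    IsT t⁻¹ v (-f) := by
  intro x
  apply inv_apply_of
  rw [h, map_add, map_smul, hf, smul_zero, add_zero, LinearMap.neg_apply, neg_smul]
  simp

theorem IsT.conj {t : V ≃ₗ[ZMod p] V} {v : V} {f : Dual (ZMod p) V} (h : IsT t v f)
    (g : V ≃ₗ[ZMod p] V) : IsT (g * t * g⁻¹) (g v) (f.comp (g⁻¹ : V ≃ₗ[ZMod p] V).toLinearMap) := by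
  intro x
  have e : g (g⁻¹ x) = x := by
    show (g * g⁻¹) x = x
    rw [mul_inv_cancel]
    rfl
  rw [LinearEquiv.mul_apply, LinearEquiv.mul_apply, h, map_add, map_smul, e]
  rfl

/-- Pairs `(v, f)` whose transvection lies in `H`. -/
def SH (H : Subgroup (V ≃ₗ[ZMod p] V)) (v : V) (f : Dual (ZMod p) V) : Prop :=
  v ≠ 0 ∧ f ≠ 0 ∧ f v = 0 ∧ ∃ t ∈ H, IsT t v f

variable {H : Subgroup (V ≃ₗ[ZMod p] V)}

theorem SH.smul_left {v : V} {f : Dual (ZMod p) V} (h : SH H v f) {c : ZMod p} (hc : c ≠ 0) :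
    SH H (c • v) f := by
  obtain ⟨h1, h2, h3, t, ht, hT⟩ := h
  refine ⟨smul_ne_zero hc h1, h2, by rw [map_smul, h3, smul_zero], t ^ c.val, H.pow_mem ht _,
    hT.zmod_pow h3 c⟩

theorem SH.smul_right {v : V} {f : Dual (ZMod p) V} (h : SH H v f) {c : ZMod p} (hc : c ≠ 0) :
    SH H v (c • f) := by
  obtain ⟨h1, h2, h3, t, ht, hT⟩ := h
  refine ⟨h1, smul_ne_zero hc h2, by rw [LinearMap.smul_apply, h3, smul_zero], t ^ c.val,
    H.pow_mem ht _, hT.zmod_pow' h3 c⟩

theorem SH.add_left {v v' : V} {f : Dual (ZMod p) V} (h : SH H v f) (h' : SH H v' f)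
    (hne : v + v' ≠ 0) : SH H (v + v') f := by
  obtain ⟨h1, h2, h3, t, ht, hT⟩ := h
  obtain ⟨h1', h2', h3', t', ht', hT'⟩ := h'
  exact ⟨hne, h2, by rw [map_add, h3, h3', add_zero], t * t', H.mul_mem ht ht', hT.mul_f hT' h3'⟩

theorem SH.add_right {v : V} {f f' : Dual (ZMod p) V} (h : SH H v f) (h' : SH H v f')
    (hne : f + f' ≠ 0) : SH H v (f + f') := by
  obtain ⟨h1, h2, h3, t, ht, hT⟩ := h
  obtain ⟨h1', h2', h3', t', ht', hT'⟩ := h'
  exact ⟨h1, hne, by rw [LinearMap.add_apply, h3, h3', add_zero], t * t', H.mul_mem ht ht',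
    hT.mul_v hT' h3⟩

theorem SH.conj_gen {v : V} {f : Dual (ZMod p) V} (h : SH H v f) {g : V ≃ₗ[ZMod p] V} (hg : g ∈ H) :
    SH H (g v) (f.comp (g⁻¹ : V ≃ₗ[ZMod p] V).toLinearMap) := by
  obtain ⟨h1, h2, h3, t, ht, hT⟩ := h
  refine ⟨fun h4 => h1 (by simpa using h4), ?_, ?_, g * t * g⁻¹,
    H.mul_mem (H.mul_mem hg ht) (H.inv_mem hg), hT.conj g⟩
  · intro h4
    apply h2
    ext y
    have := LinearMap.congr_fun h4 (g y)
    have e : g⁻¹ (g y) = y := by
      show (g⁻¹ * g) y = y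
      rw [inv_mul_cancel]
      rfl
    simpa [e] using this
  · show f (g⁻¹ (g v)) = 0
    have e : g⁻¹ (g v) = v := by
      show (g⁻¹ * g) v = v
      rw [inv_mul_cancel]
      rfl
    rw [e, h3]

theorem SH.conj {x x' : V} {f f' : Dual (ZMod p) V} (h : SH H x f) (h' : SH H x' f') (c : ZMod p) :
    SH H (x + (c * f' x) • x') (f - (c * f x') • f') := by
  obtain ⟨h1, h2, h3, t, ht, hT⟩ := h'
  have hg := hT.zmod_pow h3 c
  have hg' : t ^ c.val ∈ H := H.pow_mem ht _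
  have := SH.conj_gen h hg'
  have hinv := hg.inv (by rw [map_smul, h3, smul_zero])
  have e1 : (t ^ c.val) x = x + (c * f' x) • x' := by
    rw [hg x, smul_smul, mul_comm]
  have e2 : f.comp ((t ^ c.val)⁻¹ : V ≃ₗ[ZMod p] V).toLinearMap = f - (c * f x') • f' := by
    ext y
    show f (((t ^ c.val)⁻¹ : V ≃ₗ[ZMod p] V) y) = _
    rw [hinv y]
    simp only [map_add, map_smul, LinearMap.neg_apply, smul_eq_mul, LinearMap.sub_apply,
      LinearMap.smul_apply]
    ring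
  rwa [e1, e2] at this

/-- A normal subgroup of exponent `p` of `H` is trivial when `O_p(H) = 1`. -/
theorem pcore_elim {G : Type*} [Group G] {H : Subgroup G} (N : Subgroup G) (hNH : N ≤ H)
    (hnorm : ∀ h ∈ H, ∀ n ∈ N, h * n * h⁻¹ ∈ N) (htor : ∀ n ∈ N, n ^ p = 1)
    (hOp : Cfsg.pCore p ↥H = ⊥) : N = ⊥ := by
  have hN : (N.subgroupOf H).Normal := by
    constructor
    intro n hn g
    rw [Subgroup.mem_subgroupOf] at hn ⊢
    exact hnorm g g.2 n hn
  have hP : IsPGroup p ↥(N.subgroupOf H) := by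
    intro x
    refine ⟨1, ?_⟩
    rw [pow_one]
    apply Subtype.ext
    apply Subtype.ext
    exact htor _ (Subgroup.mem_subgroupOf.mp x.2)
  have hle : N.subgroupOf H ≤ Cfsg.pCore p ↥H := le_sSup ⟨hN, hP⟩
  rw [hOp, le_bot_iff] at hle
  rw [eq_bot_iff]
  intro n hn
  have h1 : (⟨n, hNH hn⟩ : ↥H) ∈ N.subgroupOf H := Subgroup.mem_subgroupOf.mpr hn
  rw [hle, Subgroup.mem_bot] at h1
  exact Subgroup.mem_bot.mpr (congrArg Subtype.val h1)

theorem coe_pow_end (g : V ≃ₗ[ZMod p] V) (n : ℕ) :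
    ((g ^ n : V ≃ₗ[ZMod p] V) : V →ₗ[ZMod p] V) = (g : Module.End (ZMod p) V) ^ n := by
  induction n with
  | zero => rfl
  | succ n ih =>
    rw [pow_succ, pow_succ, ← ih]
    rfl

/-- A linear automorphism with `(g - 1)³ = 0` has order dividing `p` for `p ≥ 3`. -/
theorem pow_p_of_cube (hp3 : 3 ≤ p) {g : V ≃ₗ[ZMod p] V}
    (h : ∀ x, g (g (g x - x) - (g x - x)) - (g (g x - x) - (g x - x)) = 0) : g ^ p = 1 := by
  classical
  rcases subsingleton_or_nontrivial V with hV | hV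
  · exact LinearEquiv.ext fun x => Subsingleton.elim _ _
  haveI : CharP (Module.End (ZMod p) V) p :=
    charP_of_injective_algebraMap (algebraMap (ZMod p) (Module.End (ZMod p) V)).injective p
  set a : Module.End (ZMod p) V := (g : V →ₗ[ZMod p] V) - 1 with ha
  have ha3 : a ^ 3 = 0 := by
    ext x
    have : (a ^ 3) x = a (a (a x)) := rfl
    rw [this]
    simp only [ha, LinearMap.sub_apply, LinearEquiv.coe_coe, Module.End.one_apply]
    simpa using h x
  have hpow : ((g : V →ₗ[ZMod p] V) : Module.End (ZMod p) V) ^ p = 1 := by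
    have e : (g : Module.End (ZMod p) V) = 1 + a := by rw [ha]; abel
    rw [e, add_pow_char_of_commute p (Commute.one_left a), one_pow]
    obtain ⟨k, rfl⟩ := Nat.exists_eq_add_of_le hp3
    rw [pow_add, ha3, zero_mul, add_zero]
  apply LinearEquiv.ext
  intro x
  have h2 := LinearMap.congr_fun ((coe_pow_end g p).trans hpow) x
  exact h2

end Cfsg.Agent.Lib.Root.McL
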