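import Cfsg.Agent.Lib.Root.McL.Small

/-! The structure theorem for root-pair systems. -/

set_option autoImplicit false

namespace Cfsg.Agent.Lib.Root.McL

variable {F X Y : Type*} [Field F] [AddCommGroup X] [AddCommGroup Y] [Module F X] [Module F Y]
variable {B : X →ₗ[F] Y →ₗ[F] F} {S : X → Y → Prop}

namespace RS

variable [Finite X] [Finite Y]

theorem small_facts (hS : RS B S) (hd : ∀ z f g, S z f → S z g → ∃ c : F, g = c • f)
    (h2 : (2 : F) ≠ 0) {x₀ f₀} (h₀ : S x₀ f₀) :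
    (∀ x ∈ Wsp F S, x ≠ 0 → ∃ f, S x f) ∧ (∀ f ∈ Msp F S, f ≠ 0 → ∃ x, S x f) ∧
    (∀ x ∈ Wsp F S, (∀ f ∈ Msp F S, B x f = 0) → x = 0) ∧
    (∀ f ∈ Msp F S, (∀ x ∈ Wsp F S, B x f = 0) → f = 0) ∧
    ∃ φ : Wsp F S →ₗ[F] Y, (∀ x : Wsp F S, x ≠ 0 → S x (φ x)) ∧ (∀ x : Wsp F S, B x (φ x) = 0) ∧
      (∀ (x : Wsp F S) (k : Y), S x k → ∃ c : F, k = c • φ x) ∧ (∀ x, φ x ∈ Msp F S) ∧
      (∀ f ∈ Msp F S, ∃ x : Wsp F S, f = φ x) := by
  obtain ⟨φ, h1, h3, h4, h5, h6⟩ := hS.small_main hd h2 h₀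
  have hcen : ∀ x ∈ Wsp F S, x ≠ 0 → ∃ f, S x f := fun x hx hne =>
    ⟨φ ⟨x, hx⟩, h1 ⟨x, hx⟩ (fun h => hne (congrArg Subtype.val h))⟩
  have hrad : ∀ x ∈ Wsp F S, (∀ f ∈ Msp F S, B x f = 0) → x = 0 := by
    intro x hx hk
    by_contra hne
    obtain ⟨f, hf⟩ := hcen x hx hne
    exact hS.toRS0.no_rad hf (fun z g hz => hk g (Submodule.subset_span ⟨z, hz⟩))
  refine ⟨hcen, ?_, hrad, ?_, φ, h1, h3, h5, ?_, h6⟩
  · intro f hf hne
    obtain ⟨x, rfl⟩ := h6 f hf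
    refine ⟨x, h1 x ?_⟩
    rintro rfl
    exact hne (map_zero φ)
  · intro f hf hk
    obtain ⟨x, rfl⟩ := h6 f hf
    have hx : (x : X) = 0 := by
      refine hrad x x.2 (fun k hk' => ?_)
      obtain ⟨w, rfl⟩ := h6 k hk'
      have := h4 x w
      rw [hk w w.2, zero_add] at this
      exact this
    have : x = 0 := Subtype.ext hx
    rw [this, map_zero]
  · intro x
    by_cases hx : x = 0
    · rw [hx, map_zero]; exact Submodule.zero_mem _
    · exact Submodule.subset_span ⟨x, h1 x hx⟩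

theorem full_of_big (hS : RS B S) (hbig : ∀ z k, S z k → Big F S z)
    (hcen : ∀ x ∈ Wsp F S, x ≠ 0 → ∃ f, S x f) (hax : ∀ f ∈ Msp F S, f ≠ 0 → ∃ x, S x f)
    (hrad' : ∀ f ∈ Msp F S, (∀ x ∈ Wsp F S, B x f = 0) → f = 0)
    {x f} (hx : x ∈ Wsp F S) (hf : f ∈ Msp F S) (hx0 : x ≠ 0) (hf0 : f ≠ 0) (h0 : B x f = 0) :
    S x f := by
  have hS0 := hS.toRS0
  by_contra hcon
  obtain ⟨y₀, hy₀⟩ := hax f hf hf0
  have key : ∀ a ∈ Wsp F S, B a f = 0 → ¬ S a f → ∀ y k, S y f → S y k → B a k = 0 := by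
    intro a ha hafz hna y k hy hk
    by_contra hne
    have ha0 : a ≠ 0 := by
      rintro rfl
      exact hne (by simp)
    obtain ⟨l, hl⟩ := hcen a ha ha0
    obtain ⟨g, hg, hgy⟩ := hS0.rel_symm ⟨k, hk, hne⟩ ⟨l, hl⟩
    exact hna (hS0.s3 hg hy hgy hafz)
  have key2 : ∀ a ∈ Wsp F S, B a f = 0 → ∀ y k, S y f → S y k → B a k = 0 := by
    intro a ha hafz y k hy hk
    by_cases hsa : S a f
    · have h1 : ¬ S (a + x) f := by
        intro h3
        have hm : (-1 : F) ≠ 0 := neg_ne_zero.mpr one_ne_zero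
        have h4 := hS0.add_left h3 (hS0.smul_left _ hm hsa) (by
          rw [neg_smul, one_smul]
          simpa using hx0)
        apply hcon
        have e : a + x + (-1 : F) • a = x := by rw [neg_smul, one_smul]; abel
        rwa [e] at h4
      have h3 := key (a + x) (Submodule.add_mem _ ha hx) (by rw [B_add_left, hafz, h0, add_zero]) h1 y k hy hk
      have h4 := key x hx h0 hcon y k hy hk
      rw [B_add_left, h4, add_zero] at h3
      exact h3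
    · exact key a ha hafz hsa y k hy hk
  -- a test vector
  have htest : ∃ w ∈ Wsp F S, B w f ≠ 0 := by
    by_contra hno
    push Not at hno
    exact hf0 (hrad' f hf hno)
  obtain ⟨w, hw, hwf⟩ := htest
  have hprop : ∀ k, S y₀ k → ∃ c : F, k = c • f := by
    intro k hk
    refine ⟨B w k / B w f, ?_⟩
    have hkM : k ∈ Msp F S := Submodule.subset_span ⟨y₀, hk⟩
    have := hrad' (k - (B w k / B w f) • f) (Submodule.sub_mem _ hkM (Submodule.smul_mem _ _ hf)) ?_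
    · exact sub_eq_zero.mp this
    · intro a ha
      have h3 := key2 (a - (B a f / B w f) • w) (Submodule.sub_mem _ ha (Submodule.smul_mem _ _ hw)) (by
        rw [map_sub, LinearMap.sub_apply, B_smul_left]
        field_simp
        ring) y₀ k hy₀ hk
      rw [map_sub, LinearMap.sub_apply, B_smul_left] at h3
      rw [map_sub, B_smul_right]
      have h4 : B a k = B a f / B w f * B w k := by linear_combination h3
      rw [h4]
      field_simp
      ring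
  obtain ⟨k₁, k₂, h₁, h₂, hne⟩ := hbig y₀ f hy₀
  obtain ⟨c₁, hc₁⟩ := hprop k₁ h₁
  obtain ⟨c₂, hc₂⟩ := hprop k₂ h₂
  have hc₁0 : c₁ ≠ 0 := by
    rintro rfl
    apply hS0.ne_right h₁
    rw [hc₁, zero_smul]
  apply hne (c₂ / c₁)
  rw [hc₁, hc₂, smul_smul]
  congr 1
  field_simp

/-- The structure theorem. -/
theorem main (hS : RS B S) (h2 : (2 : F) ≠ 0) {x₀ f₀} (h₀ : S x₀ f₀) :
    (∀ x ∈ Wsp F S, x ≠ 0 → ∃ f, S x f) ∧ (∀ f ∈ Msp F S, f ≠ 0 → ∃ x, S x f) ∧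
    (∀ x ∈ Wsp F S, (∀ f ∈ Msp F S, B x f = 0) → x = 0) ∧
    (∀ f ∈ Msp F S, (∀ x ∈ Wsp F S, B x f = 0) → f = 0) ∧
    ((∀ x ∈ Wsp F S, ∀ f ∈ Msp F S, x ≠ 0 → f ≠ 0 → B x f = 0 → S x f) ∨
      ∃ φ : Wsp F S →ₗ[F] Y, (∀ x : Wsp F S, x ≠ 0 → S x (φ x)) ∧ (∀ x : Wsp F S, B x (φ x) = 0) ∧
        (∀ (x : Wsp F S) (k : Y), S x k → ∃ c : F, k = c • φ x) ∧ (∀ x, φ x ∈ Msp F S) ∧
        (∀ f ∈ Msp F S, ∃ x : Wsp F S, f = φ x)) := by
  rcases hS.toRS0.big_or_small with hbig | hsmall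
  · -- the big case
    have hbig' : ∀ f k, S k f → Big F (fun f x => S x f) f := by
      rcases hS.flip.toRS0.big_or_small with h | h
      · exact fun f k hk => h f k hk
      · exfalso
        obtain ⟨ψ, h1, -, -, h5, -⟩ := hS.flip.small_main h h2 (x₀ := f₀) (f₀ := x₀) h₀
        obtain ⟨k₁, k₂, h₃, h₄, hne⟩ := hbig x₀ f₀ h₀
        have hk₁ : k₁ ∈ Msp F S := Submodule.subset_span ⟨x₀, h₃⟩
        have hk₂ : k₂ ∈ Msp F S := Submodule.subset_span ⟨x₀, h₄⟩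
        obtain ⟨c₁, hc₁⟩ := h5 ⟨k₁, hk₁⟩ x₀ h₃
        obtain ⟨c₂, hc₂⟩ := h5 ⟨k₂, hk₂⟩ x₀ h₄
        have hx0 := hS.ne_left h₀
        have hc₂0 : c₂ ≠ 0 := by
          rintro rfl
          apply hx0
          rw [hc₂, zero_smul]
        have e : ψ (c₁ • (⟨k₁, hk₁⟩ : Wsp F (fun f x => S x f)) - c₂ • ⟨k₂, hk₂⟩) = 0 := by
          rw [map_sub, map_smul, map_smul, ← hc₁, ← hc₂, sub_self]
        have hz : c₁ • (⟨k₁, hk₁⟩ : Wsp F (fun f x => S x f)) - c₂ • ⟨k₂, hk₂⟩ = 0 := by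
          by_contra hne'
          have := h1 _ hne'
          rw [e] at this
          exact hS.ne_left this rfl
        have hz' : c₁ • k₁ - c₂ • k₂ = 0 := congrArg Subtype.val hz
        apply hne (c₁ / c₂)
        have h7 : c₁ • k₁ = c₂ • k₂ := sub_eq_zero.mp hz'
        rw [div_eq_inv_mul, mul_smul, h7, smul_smul, inv_mul_cancel₀ hc₂0, one_smul]
    have hbig'' : ∀ f k, (fun f x => S x f) f k → Big F (fun f x => S x f) f := hbig'
    have hcen : ∀ x ∈ Wsp F S, x ≠ 0 → ∃ f, S x f := fun x hx hne =>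
      hS.toRS0.big_center h2 hbig hx hne
    have hax : ∀ f ∈ Msp F S, f ≠ 0 → ∃ x, S x f := fun f hf hne =>
      hS.flip.toRS0.big_center h2 hbig'' hf hne
    have hrad : ∀ x ∈ Wsp F S, (∀ f ∈ Msp F S, B x f = 0) → x = 0 := by
      intro x hx hk
      by_contra hne
      obtain ⟨f, hf⟩ := hcen x hx hne
      exact hS.toRS0.no_rad hf (fun z g hz => hk g (Submodule.subset_span ⟨z, hz⟩))
    have hrad' : ∀ f ∈ Msp F S, (∀ x ∈ Wsp F S, B x f = 0) → f = 0 := by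
      intro f hf hk
      by_contra hne
      obtain ⟨x, hx⟩ := hax f hf hne
      refine hS.flip.toRS0.no_rad hx (fun z g hz => ?_)
      simpa using hk g (Submodule.subset_span ⟨z, hz⟩)
    refine ⟨hcen, hax, hrad, hrad', Or.inl ?_⟩
    intro x hx f hf hx0 hf0 h0
    exact hS.full_of_big hbig hcen hax hrad' hx hf hx0 hf0 h0
  · obtain ⟨a, b, c, d, e⟩ := hS.small_facts hsmall h2 h₀
    exact ⟨a, b, c, d, Or.inr e⟩

end RS

end Cfsg.Agent.Lib.Root.McL
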