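import Cfsg.Agent.Lib.Root.McL.Big

/-! Root-pair systems whose centers carry a unique functional up to scalars: the symplectic case. -/

set_option autoImplicit false

namespace Cfsg.Agent.Lib.Root.McL

variable {F X Y : Type*} [Field F] [AddCommGroup X] [AddCommGroup Y] [Module F X] [Module F Y]
variable {B : X →ₗ[F] Y →ₗ[F] F} {S : X → Y → Prop}

/-- Pairs normalized with respect to `(x₀, f₀)`. -/
def TT (B : X →ₗ[F] Y →ₗ[F] F) (S : X → Y → Prop) (x₀ : X) (f₀ : Y) (y : X) (g : Y) : Prop :=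
  S y g ∧ B x₀ g = - B y f₀ ∧ B y f₀ ≠ 0

theorem B_add_left (a b : X) (f : Y) : B (a + b) f = B a f + B b f := by
  rw [map_add, LinearMap.add_apply]

theorem B_smul_left (c : F) (a : X) (f : Y) : B (c • a) f = c * B a f := by
  rw [map_smul, LinearMap.smul_apply, smul_eq_mul]

theorem B_smul_right (c : F) (a : X) (f : Y) : B a (c • f) = c * B a f := by
  rw [map_smul, smul_eq_mul]

theorem B_add_right (a : X) (f g : Y) : B a (f + g) = B a f + B a g := map_add _ _ _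

namespace RS0

section small

variable (hS : RS0 B S) (hd : ∀ z f g, S z f → S z g → ∃ c : F, g = c • f)
include hS hd

theorem alt_aux {x f y₁ g₁ y₂ g₂} {e : F} (hx : S x f) (h₁ : S y₁ g₁) (h₂ : S y₂ g₂) (he : e ≠ 0)
    (a1 : B y₁ f = e) (a2 : B y₂ f = e) (a3 : B x g₁ = -e) (a4 : B x g₂ = -e) :
    B y₂ g₁ + B y₁ g₂ = 0 := by
  by_contra hab
  set c := B y₁ g₂ / e with hc
  have hce : c * e = B y₁ g₂ := by rw [hc]; field_simp
  have hz : S (c • x + y₁) (c • f + g₁) := by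
    by_cases hc0 : c = 0
    · rw [hc0, zero_smul, zero_smul, zero_add, zero_add]; exact h₁
    · refine hS.s2 (hS.smul_left c hc0 (hS.smul_right c hc0 hx)) h₁ ?_ ?_
      · rw [B_smul_right, B_smul_left, a1, a3]; ring
      · rw [B_smul_left, a3]
        exact mul_ne_zero hc0 (neg_ne_zero.mpr he)
  have e1 : B (c • x + y₁) g₂ = 0 := by
    rw [B_add_left, B_smul_left, a4]
    linear_combination -hce
  have e2 : B y₂ (c • f + g₁) ≠ 0 := by
    rw [B_add_right, B_smul_right, a2, hce]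
    intro h
    apply hab
    linear_combination h
  have hs := hS.s3 hz h₂ e2 e1
  obtain ⟨l, hl⟩ := hd _ _ _ hz hs
  have h3 := hS.iso h₂
  rw [hl, B_smul_right] at h3
  have hl0 : l = 0 := (mul_eq_zero.mp h3).resolve_right e2
  apply hS.ne_right h₂
  rw [hl, hl0, zero_smul]

variable {x₀ : X} {f₀ : Y}

theorem T_unique {y g g'} (h : TT B S x₀ f₀ y g) (h' : TT B S x₀ f₀ y g') : g' = g := by
  obtain ⟨c, hc⟩ := hd y g g' h.1 h'.1
  have h1 := h'.2.1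
  rw [hc, B_smul_right, ← h.2.1] at h1
  have h2 : B x₀ g ≠ 0 := by
    rw [h.2.1]; exact neg_ne_zero.mpr h.2.2
  have hc1 : c = 1 := mul_right_cancel₀ h2 (by rw [h1, one_mul])
  rw [hc, hc1, one_smul]

omit hd in
theorem T_smul {y g} (h : TT B S x₀ f₀ y g) {c : F} (hc : c ≠ 0) :
    TT B S x₀ f₀ (c • y) (c • g) := by
  refine ⟨hS.smul_left c hc (hS.smul_right c hc h.1), ?_, ?_⟩
  · rw [B_smul_right, B_smul_left, h.2.1]; ring
  · rw [B_smul_left]; exact mul_ne_zero hc h.2.2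

theorem T_skew (h₀ : S x₀ f₀) {y₁ g₁ y₂ g₂} (h₁ : TT B S x₀ f₀ y₁ g₁) (h₂ : TT B S x₀ f₀ y₂ g₂) :
    B y₂ g₁ + B y₁ g₂ = 0 := by
  have hl : B y₁ f₀ / B y₂ f₀ ≠ 0 := div_ne_zero h₁.2.2 h₂.2.2
  set l := B y₁ f₀ / B y₂ f₀ with hldef
  have e : l * B y₂ f₀ = B y₁ f₀ := by
    rw [hldef]
    have := h₂.2.2
    field_simp
  have h₂' := T_smul hS h₂ hl
  have := hS.alt_aux hd h₀ h₁.1 h₂'.1 h₁.2.2 rfl (by rw [B_smul_left, e]) h₁.2.1
    (by rw [h₂'.2.1, B_smul_left, e])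
  rw [B_smul_left, B_smul_right, ← mul_add] at this
  exact (mul_eq_zero.mp this).resolve_left hl

theorem T_add (h₀ : S x₀ f₀) {y₁ g₁ y₂ g₂} (h₁ : TT B S x₀ f₀ y₁ g₁) (h₂ : TT B S x₀ f₀ y₂ g₂)
    (hne : B y₁ f₀ + B y₂ f₀ ≠ 0) : TT B S x₀ f₀ (y₁ + y₂) (g₁ + g₂) := by
  have hsk := hS.T_skew hd h₀ h₁ h₂
  refine ⟨?_, ?_, ?_⟩
  · by_cases h : B y₂ g₁ = 0
    · have h' : B y₁ g₂ = 0 := by
        rw [h, zero_add] at hsk; exact hsk
      have n1 : B x₀ g₁ ≠ 0 := by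
        rw [h₁.2.1]; exact neg_ne_zero.mpr h₁.2.2
      have n2 : B x₀ g₂ ≠ 0 := by
        rw [h₂.2.1]; exact neg_ne_zero.mpr h₂.2.2
      have := hS.add3a h₁.1 h₂.1 h₀ h h' n1 n2 h₁.2.2 h₂.2.2 hne
      have c1 : - B y₁ f₀ / B x₀ g₁ = 1 := by
        rw [← h₁.2.1]; exact div_self n1
      have c2 : - B y₂ f₀ / B x₀ g₂ = 1 := by
        rw [← h₂.2.1]; exact div_self n2
      rwa [c1, c2, one_smul, one_smul] at this
    · refine hS.s2 h₁.1 h₂.1 hsk ?_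
      intro h0
      rw [h0, add_zero] at hsk
      exact h hsk
  · rw [B_add_right, B_add_left, h₁.2.1, h₂.2.1]; ring
  · rw [B_add_left]; exact hne

theorem T_add3 (h2 : (2 : F) ≠ 0) (h₀ : S x₀ f₀) {a α b β c γ} (ha : TT B S x₀ f₀ a α)
    (hb : TT B S x₀ f₀ b β) (hc : TT B S x₀ f₀ c γ) (hne : B a f₀ + B b f₀ + B c f₀ ≠ 0) :
    TT B S x₀ f₀ (a + b + c) (α + β + γ) := by
  by_cases h : B a f₀ + B b f₀ = 0
  · by_cases h' : B a f₀ + B c f₀ = 0
    · have h3 : B b f₀ + B c f₀ ≠ 0 := by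
        have e : B b f₀ + B c f₀ = (2 : F) * (- B a f₀) := by linear_combination h + h'
        rw [e]
        exact mul_ne_zero h2 (neg_ne_zero.mpr ha.2.2)
      have t := hS.T_add hd h₀ hb hc h3
      have := hS.T_add hd h₀ ha t (by rw [B_add_left, ← add_assoc]; exact hne)
      rw [← add_assoc, ← add_assoc] at this
      exact this
    · have t := hS.T_add hd h₀ ha hc h'
      have := hS.T_add hd h₀ t hb (by
        rw [B_add_left]
        intro h4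
        apply hne
        linear_combination h4)
      have e1 : a + c + b = a + b + c := by abel
      have e2 : α + γ + β = α + β + γ := by abel
      rwa [e1, e2] at this
  · exact hS.T_add hd h₀ (hS.T_add hd h₀ ha hb h) hc (by rw [B_add_left]; exact hne)

theorem T_add4 (h2 : (2 : F) ≠ 0) (h₀ : S x₀ f₀) {a α b β c γ d δ} (ha : TT B S x₀ f₀ a α)
    (hb : TT B S x₀ f₀ b β) (hc : TT B S x₀ f₀ c γ) (hd' : TT B S x₀ f₀ d δ)
    (hne : B a f₀ + B b f₀ + B c f₀ + B d f₀ ≠ 0) :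
    TT B S x₀ f₀ (a + b + (c + d)) (α + β + (γ + δ)) := by
  by_cases h : B a f₀ + B b f₀ = 0
  · have h' : B c f₀ + B d f₀ ≠ 0 := by
      intro h4
      apply hne
      linear_combination h + h4
    have t := hS.T_add hd h₀ hc hd' h'
    have := hS.T_add3 hd h2 h₀ ha hb t (by rw [B_add_left, ← add_assoc]; exact hne)
    have e1 : a + b + (c + d) = a + b + (c + d) := rfl
    exact this
  · have t := hS.T_add hd h₀ ha hb h
    have := hS.T_add3 hd h2 h₀ t hc hd' (by rw [B_add_left]; exact hne)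
    rw [add_assoc (a + b), add_assoc (α + β)] at this
    exact this

variable [Finite X] [Finite Y]

theorem T_exists (h₀ : S x₀ f₀) {y k} (hy : S y k) (hne : B y f₀ ≠ 0) : ∃ g, TT B S x₀ f₀ y g := by
  obtain ⟨g', hg', hne'⟩ := hS.rel_symm ⟨f₀, h₀, hne⟩ ⟨k, hy⟩
  refine ⟨(- B y f₀ / B x₀ g') • g', hS.smul_right _ (div_ne_zero (neg_ne_zero.mpr hne) hne') hg',
    ?_, hne⟩
  rw [B_smul_right]
  field_simp

theorem rel_iff (h₀ : S x₀ f₀) {y} (h : Rel B S x₀ y) : B y f₀ ≠ 0 := by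
  obtain ⟨f, hf, hne⟩ := h
  obtain ⟨c, hc⟩ := hd _ _ _ h₀ hf
  rw [hc, B_smul_right] at hne
  exact right_ne_zero_of_mul hne

theorem exists_T (h₀ : S x₀ f₀) : ∃ z ξ, TT B S x₀ f₀ z ξ := by
  obtain ⟨y, ⟨k, hk⟩, hr⟩ := hS.exists_rel h₀
  obtain ⟨g, hg⟩ := hS.T_exists hd h₀ hk (hS.rel_iff hd h₀ hr)
  exact ⟨y, g, hg⟩

/-- Sums of two normalized pairs. -/
def YY (h2 : (2 : F) ≠ 0) (h₀ : S x₀ f₀) : Submodule F (X × Y) where
  carrier := {ζ | ∃ a α b β, TT B S x₀ f₀ a α ∧ TT B S x₀ f₀ b β ∧ ζ = (a + b, α + β)}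
  add_mem' := by
    rintro _ _ ⟨a, α, b, β, ha, hb, rfl⟩ ⟨c, γ, d, δ, hc, hd', rfl⟩
    by_cases hne : B a f₀ + B b f₀ + B c f₀ + B d f₀ = 0
    · have h3 : B a f₀ + B b f₀ + B c f₀ ≠ 0 := by
        intro h4
        apply hd'.2.2
        linear_combination hne - h4
      refine ⟨_, _, d, δ, hS.T_add3 hd h2 h₀ ha hb hc h3, hd', ?_⟩
      ext
      · show a + b + (c + d) = a + b + c + d
        abel
      · show α + β + (γ + δ) = α + β + γ + δ
        abel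
    · have t := hS.T_add4 hd h2 h₀ ha hb hc hd' hne
      have h2' : (2 : F) - 1 ≠ 0 := by
        rw [show (2 : F) - 1 = 1 by norm_num]; exact one_ne_zero
      refine ⟨_, _, _, _, T_smul hS t h2, T_smul hS t (neg_ne_zero.mpr (one_ne_zero (α := F))), ?_⟩
      ext
      · show a + b + (c + d) = (2 : F) • (a + b + (c + d)) + (-1 : F) • (a + b + (c + d))
        rw [two_smul, neg_smul, one_smul]; abel
      · show α + β + (γ + δ) = (2 : F) • (α + β + (γ + δ)) + (-1 : F) • (α + β + (γ + δ))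
        rw [two_smul, neg_smul, one_smul]; abel
  zero_mem' := by
    obtain ⟨z, ξ, h⟩ := hS.exists_T hd h₀
    refine ⟨z, ξ, _, _, h, T_smul hS h (neg_ne_zero.mpr (one_ne_zero (α := F))), ?_⟩
    rw [neg_smul, neg_smul, one_smul, one_smul, add_neg_cancel, add_neg_cancel]
    rfl
  smul_mem' := by
    rintro c _ ⟨a, α, b, β, ha, hb, rfl⟩
    by_cases hc : c = 0
    · rw [hc, zero_smul]
      obtain ⟨z, ξ, h⟩ := hS.exists_T hd h₀
      refine ⟨z, ξ, _, _, h, T_smul hS h (neg_ne_zero.mpr (one_ne_zero (α := F))), ?_⟩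
      rw [neg_smul, neg_smul, one_smul, one_smul, add_neg_cancel, add_neg_cancel]
      rfl
    · refine ⟨_, _, _, _, T_smul hS ha hc, T_smul hS hb hc, ?_⟩
      ext
      · show c • (a + b) = c • a + c • b
        rw [smul_add]
      · show c • (α + β) = c • α + c • β
        rw [smul_add]

theorem T_mem (h2 : (2 : F) ≠ 0) (h₀ : S x₀ f₀) {y g} (h : TT B S x₀ f₀ y g) :
    (y, g) ∈ hS.YY hd h2 h₀ := by
  refine ⟨_, _, _, _, T_smul hS h h2, T_smul hS h (neg_ne_zero.mpr (one_ne_zero (α := F))), ?_⟩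
  ext
  · show y = (2 : F) • y + (-1 : F) • y
    rw [two_smul, neg_smul, one_smul]; abel
  · show g = (2 : F) • g + (-1 : F) • g
    rw [two_smul, neg_smul, one_smul]; abel

theorem Y_T (h2 : (2 : F) ≠ 0) (h₀ : S x₀ f₀) {y g} (h : (y, g) ∈ hS.YY hd h2 h₀)
    (hne : B y f₀ ≠ 0) : TT B S x₀ f₀ y g := by
  obtain ⟨a, α, b, β, ha, hb, he⟩ := h
  have h1 : y = a + b := congrArg Prod.fst he
  have h3 : g = α + β := congrArg Prod.snd he
  subst h1 h3
  rw [B_add_left] at hne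
  exact hS.T_add hd h₀ ha hb hne

theorem Y_skew (h2 : (2 : F) ≠ 0) (h₀ : S x₀ f₀) {y g y' g'} (h : (y, g) ∈ hS.YY hd h2 h₀)
    (h' : (y', g') ∈ hS.YY hd h2 h₀) : B y' g + B y g' = 0 := by
  obtain ⟨a, α, b, β, ha, hb, he⟩ := h
  obtain ⟨c, γ, d, δ, hc, hd', he'⟩ := h'
  have h1 : y = a + b := congrArg Prod.fst he
  have h3 : g = α + β := congrArg Prod.snd he
  have h4 : y' = c + d := congrArg Prod.fst he'
  have h5 : g' = γ + δ := congrArg Prod.snd he'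
  subst h1 h3 h4 h5
  have e1 := hS.T_skew hd h₀ ha hc
  have e2 := hS.T_skew hd h₀ ha hd'
  have e3 := hS.T_skew hd h₀ hb hc
  have e4 := hS.T_skew hd h₀ hb hd'
  simp only [B_add_left, B_add_right]
  linear_combination e1 + e2 + e3 + e4

theorem Y_iso (h2 : (2 : F) ≠ 0) (h₀ : S x₀ f₀) {y g} (h : (y, g) ∈ hS.YY hd h2 h₀) :
    B y g = 0 := by
  obtain ⟨a, α, b, β, ha, hb, he⟩ := h
  have h1 : y = a + b := congrArg Prod.fst he
  have h3 : g = α + β := congrArg Prod.snd he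
  subst h1 h3
  have e1 := hS.T_skew hd h₀ ha hb
  have e2 := hS.iso ha.1
  have e3 := hS.iso hb.1
  simp only [B_add_left, B_add_right]
  linear_combination e1 + e2 + e3

theorem Y_zero (h2 : (2 : F) ≠ 0) (h₀ : S x₀ f₀) {g} (h : ((0 : X), g) ∈ hS.YY hd h2 h₀) : g = 0 := by
  obtain ⟨z, ξ, hz⟩ := hS.exists_T hd h₀
  have h1 : ((0 : X), g) + (z, ξ) ∈ hS.YY hd h2 h₀ := Submodule.add_mem _ h (hS.T_mem hd h2 h₀ hz)
  have h3 : (z, g + ξ) ∈ hS.YY hd h2 h₀ := by simpa using h1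
  have h4 := hS.Y_T hd h2 h₀ h3 hz.2.2
  have h5 := hS.T_unique hd hz h4
  exact add_eq_right.mp h5

theorem Y_unique (h2 : (2 : F) ≠ 0) (h₀ : S x₀ f₀) {y g g'} (h : (y, g) ∈ hS.YY hd h2 h₀)
    (h' : (y, g') ∈ hS.YY hd h2 h₀) : g = g' := by
  have h1 : (y, g) - (y, g') ∈ hS.YY hd h2 h₀ := Submodule.sub_mem _ h h'
  have h3 : ((0 : X), g - g') ∈ hS.YY hd h2 h₀ := by simpa using h1
  exact sub_eq_zero.mp (hS.Y_zero hd h2 h₀ h3)

theorem Y_center (h2 : (2 : F) ≠ 0) (h₀ : S x₀ f₀) {x k} (hx : S x k) :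
    ∃ g, (x, g) ∈ hS.YY hd h2 h₀ := by
  by_cases hne : B x f₀ = 0
  · obtain ⟨z, ⟨l, hl⟩, hx₀z, hzx⟩ := hS.common_nbr h₀ hx
    have hz := hS.rel_iff hd h₀ hx₀z
    obtain ⟨ξ, hξ⟩ := hS.T_exists hd h₀ hl hz
    have hxz : Rel B S x z := hS.rel_symm hzx ⟨k, hx⟩
    obtain ⟨f', hf', hf'z⟩ := hxz
    -- `ξ` is nonzero at `x`
    have hξx : B x ξ ≠ 0 := by
      obtain ⟨l', hl', hl'x⟩ := hzx
      obtain ⟨c, hc⟩ := hd _ _ _ hξ.1 hl'
      rw [hc, B_smul_right] at hl'x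
      exact right_ne_zero_of_mul hl'x
    obtain ⟨k', hk'⟩ := hS.center_add ⟨f', hf', hf'z⟩ ⟨ξ, hξ.1⟩
    have hne' : B (x + z) f₀ ≠ 0 := by
      rw [B_add_left, hne, zero_add]; exact hz
    obtain ⟨g, hg⟩ := hS.T_exists hd h₀ hk' hne'
    refine ⟨g - ξ, ?_⟩
    have h1 := Submodule.sub_mem _ (hS.T_mem hd h2 h₀ hg) (hS.T_mem hd h2 h₀ hξ)
    simpa using h1
  · obtain ⟨g, hg⟩ := hS.T_exists hd h₀ hx hne
    exact ⟨g, hS.T_mem hd h2 h₀ hg⟩

theorem Y_exists (h2 : (2 : F) ≠ 0) (h₀ : S x₀ f₀) {x} (hx : x ∈ Wsp F S) :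
    ∃ g, (x, g) ∈ hS.YY hd h2 h₀ := by
  induction hx using Submodule.span_induction with
  | mem y hy =>
    obtain ⟨k, hk⟩ := hy
    exact hS.Y_center hd h2 h₀ hk
  | zero => exact ⟨0, Submodule.zero_mem _⟩
  | add a b _ _ ha hb =>
    obtain ⟨g, hg⟩ := ha
    obtain ⟨g', hg'⟩ := hb
    exact ⟨g + g', by simpa using Submodule.add_mem _ hg hg'⟩
  | smul c a _ ha =>
    obtain ⟨g, hg⟩ := ha
    exact ⟨c • g, by simpa using Submodule.smul_mem _ c hg⟩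

/-- Some normalized pair does not vanish at a given center. -/
theorem sep (h₀ : S x₀ f₀) {z' k} (hz' : S z' k) : ∃ z ξ, TT B S x₀ f₀ z ξ ∧ B z' ξ ≠ 0 := by
  obtain ⟨z, ⟨l, hl⟩, hx₀z, hzz'⟩ := hS.common_nbr h₀ hz'
  obtain ⟨ξ, hξ⟩ := hS.T_exists hd h₀ hl (hS.rel_iff hd h₀ hx₀z)
  refine ⟨z, ξ, hξ, ?_⟩
  obtain ⟨l', hl', hl'x⟩ := hzz'
  obtain ⟨c, hc⟩ := hd _ _ _ hξ.1 hl'
  rw [hc, B_smul_right] at hl'x
  exact right_ne_zero_of_mul hl'x

theorem Y_S (h2 : (2 : F) ≠ 0) (h₀ : S x₀ f₀) {x g z ξ} (h : (x, g) ∈ hS.YY hd h2 h₀)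
    (hz : TT B S x₀ f₀ z ξ) (hne : B x ξ ≠ 0) : S x g := by
  by_cases h0 : B x f₀ = 0
  · have hsum : (x + z, g + ξ) ∈ hS.YY hd h2 h₀ := by
      simpa using Submodule.add_mem _ h (hS.T_mem hd h2 h₀ hz)
    have ht := hS.Y_T hd h2 h₀ hsum (by rw [B_add_left, h0, zero_add]; exact hz.2.2)
    have hsk := hS.Y_skew hd h2 h₀ h (hS.T_mem hd h2 h₀ hz)
    have hm : (-1 : F) ≠ 0 := neg_ne_zero.mpr one_ne_zero
    have s := hS.smul_left _ hm (hS.smul_right _ hm hz.1)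
    have hzξ := hS.iso hz.1
    have s2 := hS.s2 ht.1 s ?_ ?_
    · have e1 : x + z + (-1 : F) • z = x := by rw [neg_smul, one_smul]; abel
      have e2 : g + ξ + (-1 : F) • ξ = g := by rw [neg_smul, one_smul]; abel
      rwa [e1, e2] at s2
    · simp only [B_add_left, B_add_right, B_smul_left, B_smul_right, hzξ]
      linear_combination -hsk
    · simp only [B_add_left, B_smul_right, hzξ]
      intro h5
      apply hne
      linear_combination -h5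
  · exact (hS.Y_T hd h2 h₀ h h0).1

theorem center_S (h2 : (2 : F) ≠ 0) (h₀ : S x₀ f₀) {x k g} (hx : S x k)
    (h : (x, g) ∈ hS.YY hd h2 h₀) : S x g := by
  obtain ⟨z, ξ, hz, hne⟩ := hS.sep hd h₀ hx
  exact hS.Y_S hd h2 h₀ h hz hne

end small

end RS0

namespace RS

variable (hS : RS B S) (hd : ∀ z f g, S z f → S z g → ∃ c : F, g = c • f)
include hS hd
variable {x₀ : X} {f₀ : Y} [Finite X] [Finite Y]

/-- Every nonzero vector in the graph is a center. -/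
theorem all_S (h2 : (2 : F) ≠ 0) (h₀ : S x₀ f₀) {x g} (hne : x ≠ 0)
    (h : (x, g) ∈ hS.toRS0.YY hd h2 h₀) : S x g := by
  have hS0 := hS.toRS0
  by_contra hcon
  have hall : ∀ z ξ, TT B S x₀ f₀ z ξ → B x ξ = 0 := by
    intro z ξ hz
    by_contra h3
    exact hcon (hS0.Y_S hd h2 h₀ h hz h3)
  have hYx : ∀ y γ, (y, γ) ∈ hS.toRS0.YY hd h2 h₀ → B x γ = 0 := by
    rintro y γ ⟨a, α, b, β, ha, hb, he⟩
    have h3 : γ = α + β := congrArg Prod.snd he
    rw [h3, B_add_right, hall a α ha, hall b β hb, add_zero]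
  have hk : ∀ z k, S z k → B x k = 0 := by
    intro z k hz
    obtain ⟨γ, hγ⟩ := hS0.Y_center hd h2 h₀ hz
    have hγS := hS0.center_S hd h2 h₀ hz hγ
    obtain ⟨c, hc⟩ := hd _ _ _ hγS hz
    rw [hc, B_smul_right, hYx z γ hγ, mul_zero]
  have hg : ∀ z k, S z k → B z g = 0 := by
    intro z k hz
    obtain ⟨γ, hγ⟩ := hS0.Y_center hd h2 h₀ hz
    have hsk := hS0.Y_skew hd h2 h₀ h hγ
    rw [hYx z γ hγ, add_zero] at hsk
    exact hsk
  have h0 : B x f₀ = 0 := by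
    by_contra h3
    exact hcon (hS0.Y_T hd h2 h₀ h h3).1
  obtain ⟨z, ξ, hz⟩ := hS0.exists_T hd h₀
  have hsum : (x + z, g + ξ) ∈ hS.toRS0.YY hd h2 h₀ := by
    simpa using Submodule.add_mem _ h (hS0.T_mem hd h2 h₀ hz)
  have ht := hS0.Y_T hd h2 h₀ hsum (by rw [B_add_left, h0, zero_add]; exact hz.2.2)
  have hf := hS.faith hz.1 ht.1 (fun a b hab => by
      rw [show x + z - z = x by abel]; exact hk a b hab)
    (fun a b hab => by
      rw [show g + ξ - ξ = g by abel]; exact hg a b hab)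
  apply hne
  exact add_eq_right.mp hf.1

/-- The symplectic structure attached to a system with small centers. -/
theorem small_main (h2 : (2 : F) ≠ 0) (h₀ : S x₀ f₀) :
    ∃ φ : Wsp F S →ₗ[F] Y, (∀ x : Wsp F S, x ≠ 0 → S x (φ x)) ∧ (∀ x : Wsp F S, B x (φ x) = 0) ∧
      (∀ x y : Wsp F S, B y (φ x) + B x (φ y) = 0) ∧
      (∀ (x : Wsp F S) (k : Y), S x k → ∃ c : F, k = c • φ x) ∧
      (∀ f ∈ Msp F S, ∃ x : Wsp F S, f = φ x) := by
  have hS0 := hS.toRS0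
  choose φ hφ using fun x : Wsp F S => hS0.Y_exists hd h2 h₀ x.2
  let φ' : Wsp F S →ₗ[F] Y :=
    { toFun := φ
      map_add' := fun x y => by
        refine hS0.Y_unique hd h2 h₀ (hφ (x + y)) ?_
        simpa using Submodule.add_mem _ (hφ x) (hφ y)
      map_smul' := fun c x => by
        refine hS0.Y_unique hd h2 h₀ (hφ (c • x)) ?_
        simpa using Submodule.smul_mem _ c (hφ x) }
  have hφ' : ∀ x : Wsp F S, ((x : X), φ' x) ∈ hS.toRS0.YY hd h2 h₀ := hφ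
  have hSφ : ∀ x : Wsp F S, x ≠ 0 → S x (φ' x) := fun x hx =>
    hS.all_S hd h2 h₀ (fun h => hx (Subtype.ext h)) (hφ' x)
  have hprop : ∀ (x : Wsp F S) (k : Y), S x k → ∃ c : F, k = c • φ' x := by
    intro x k hk
    have hx : x ≠ 0 := fun h => hS0.ne_left hk (congrArg Subtype.val h)
    exact hd _ _ _ (hSφ x hx) hk
  refine ⟨φ', hSφ, fun x => hS0.Y_iso hd h2 h₀ (hφ' x), fun x y => hS0.Y_skew hd h2 h₀ (hφ' x) (hφ' y),
    hprop, ?_⟩
  intro f hf
  induction hf using Submodule.span_induction with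
  | mem g hg =>
    obtain ⟨z, hz⟩ := hg
    have hzW : z ∈ Wsp F S := Submodule.subset_span ⟨g, hz⟩
    obtain ⟨c, hc⟩ := hprop ⟨z, hzW⟩ g hz
    exact ⟨c • ⟨z, hzW⟩, by rw [map_smul]; exact hc⟩
  | zero => exact ⟨0, (map_zero φ').symm⟩
  | add a b _ _ ha hb =>
    obtain ⟨x, rfl⟩ := ha
    obtain ⟨y, rfl⟩ := hb
    exact ⟨x + y, (map_add φ' x y).symm⟩
  | smul c a _ ha =>
    obtain ⟨x, rfl⟩ := ha
    exact ⟨c • x, (map_smul φ' c x).symm⟩

end RS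

end Cfsg.Agent.Lib.Root.McL
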